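import Cfsg.Agent.H46.MSPres
import Cfsg.Agent.J4Type.CocodeMask
import Cfsg.Agent.GH.LowRankMathieu
import Cfsg.Agent.MTwelveType.SylowModel
import Cfsg.Agent.SporadicA.Co0Mono
import Cfsg.Prelude.Def_Spor_Mathieu
import Cfsg.Prelude.Def_Spor_Conway

/-!
# Minimal simple subgroups of the Mathieu and Conway groups (helper46)
-/

set_option autoImplicit false

namespace Cfsg.Agent.H46.MS

open Subgroup Cfsg Cfsg.Spor
open Cfsg.Agent.SporadicA.GolayBase Cfsg.Agent.J4Type.CocodeMask
open Cfsg.Agent.SporadicA.GolayPerm hiding pcomp papp_pcomp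

theorem isTab_eq {g h : M24} {P : ℕ} (hg : IsTab g P) (hh : IsTab h P) : g = h := by
  apply Subtype.ext
  apply Equiv.ext
  intro p
  apply idx_injective
  rw [hg, hh]

theorem isTab_mul {g h : M24} {P Q : ℕ} (hg : IsTab g P) (hh : IsTab h Q) : IsTab (g * h) (pcomp P Q) := by
  intro p
  rw [papp_pcomp P Q (idx_lt p), ← hh p, ← hg]
  rfl

/-- a pair of type `(2,3,5)` in `M₂₂` -/
def Z22 : ℕ := 984808994324989787920432733968517152
def X22 : ℕ := 971616578451862660901636977940924672
/-- a pair of type `(2,3,5)` in `M₁₁` -/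
def Z11 : ℕ := 588336453741888802646980634186500608
def X11 : ℕ := 470820944976537419085138596209960448

noncomputable def z22 : M24 := Cfsg.Agent.J4Type.CocodeMask.mk Z22 (by decide +kernel)
noncomputable def x22 : M24 := Cfsg.Agent.J4Type.CocodeMask.mk X22 (by decide +kernel)
noncomputable def z11 : M24 := Cfsg.Agent.J4Type.CocodeMask.mk Z11 (by decide +kernel)
noncomputable def x11 : M24 := Cfsg.Agent.J4Type.CocodeMask.mk X11 (by decide +kernel)

theorem tab_z22 : IsTab z22 Z22 := isTab_mk _ _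
theorem tab_x22 : IsTab x22 X22 := isTab_mk _ _
theorem tab_z11 : IsTab z11 Z11 := isTab_mk _ _
theorem tab_x11 : IsTab x11 X11 := isTab_mk _ _

attribute [irreducible] z22 x22 z11 x11

theorem z22_sq : z22 * z22 = 1 :=
  isTab_eq (isTab_mul tab_z22 tab_z22) (by
    have : pcomp Z22 Z22 = pone := by decide +kernel
    rw [this]; exact isTab_one)

theorem x22_cube : x22 ^ 3 = 1 := by
  rw [pow_succ, pow_two]
  exact isTab_eq (isTab_mul (isTab_mul tab_x22 tab_x22) tab_x22) (by
    have : pcomp (pcomp X22 X22) X22 = pone := by decide +kernel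
    rw [this]; exact isTab_one)

theorem zx22_five : (z22 * x22) ^ 5 = 1 := by
  have h := isTab_mul tab_z22 tab_x22
  simp only [pow_succ, pow_zero, one_mul]
  exact isTab_eq (isTab_mul (isTab_mul (isTab_mul (isTab_mul h h) h) h) h) (by
    have : pcomp (pcomp (pcomp (pcomp (pcomp Z22 X22) (pcomp Z22 X22)) (pcomp Z22 X22)) (pcomp Z22 X22))
      (pcomp Z22 X22) = pone := by decide +kernel
    rw [this]; exact isTab_one)

theorem z11_sq : z11 * z11 = 1 :=
  isTab_eq (isTab_mul tab_z11 tab_z11) (by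
    have : pcomp Z11 Z11 = pone := by decide +kernel
    rw [this]; exact isTab_one)

theorem x11_cube : x11 ^ 3 = 1 := by
  rw [pow_succ, pow_two]
  exact isTab_eq (isTab_mul (isTab_mul tab_x11 tab_x11) tab_x11) (by
    have : pcomp (pcomp X11 X11) X11 = pone := by decide +kernel
    rw [this]; exact isTab_one)

theorem zx11_five : (z11 * x11) ^ 5 = 1 := by
  have h := isTab_mul tab_z11 tab_x11
  simp only [pow_succ, pow_zero, one_mul]
  exact isTab_eq (isTab_mul (isTab_mul (isTab_mul (isTab_mul h h) h) h) h) (by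
    have : pcomp (pcomp (pcomp (pcomp (pcomp Z11 X11) (pcomp Z11 X11)) (pcomp Z11 X11)) (pcomp Z11 X11))
      (pcomp Z11 X11) = pone := by decide +kernel
    rw [this]; exact isTab_one)

theorem x22_one : ((x22 : M24) : Equiv.Perm GolayPt) (some 1) = some 8 := by
  apply idx_injective
  rw [tab_x22 (some 1)]
  decide +kernel

theorem x22_ne : x22 ≠ 1 := by
  intro h
  have := x22_one
  rw [h] at this
  exact absurd this (by decide)

theorem x11_ne : x11 ≠ 1 := by
  intro h
  have h1 : ((x11 : M24) : Equiv.Perm GolayPt) (some 1) = some 16 := by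
    apply idx_injective
    rw [tab_x11 (some 1)]
    decide +kernel
  rw [h] at h1
  exact absurd h1 (by decide)

/-! ### Mathieu groups -/

/-- a subgroup containing two elements of `M₂₄` -/
theorem hasMS_sub {G : Type*} [Group G] {z x : G} (hz : z * z = 1) (hx : x ^ 3 = 1) (h5 : (z * x) ^ 5 = 1) (hne : x ≠ 1)
    (H : Subgroup G) (hzH : z ∈ H) (hxH : x ∈ H) : HasMS ↥H :=
  hasMS_of_235 (⟨z, hzH⟩ : H) ⟨x, hxH⟩ (Subtype.ext hz) (Subtype.ext hx) (Subtype.ext h5)
    fun h => hne (congrArg Subtype.val h)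

theorem mem22_of_tab {g : M24} {P : ℕ} (hg : IsTab g P) (h1 : papp P 23 = 23) (h2 : papp P 0 = 0) :
    (g : Equiv.Perm GolayPt) ∈ Spor.M22 := by
  refine ⟨⟨g.2, ?_⟩, ?_⟩
  · show _ ∈ MulAction.stabilizer _ _
    rw [MulAction.mem_stabilizer_iff]
    apply idx_injective
    show idx ((g : Equiv.Perm GolayPt) none) = idx none
    rw [hg none, Cfsg.Agent.GH.LowRankMathieu.idx_none, h1]
  · show _ ∈ MulAction.stabilizer _ _
    rw [MulAction.mem_stabilizer_iff]
    apply idx_injective
    show idx ((g : Equiv.Perm GolayPt) (some 0)) = idx (some 0)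
    rw [hg (some 0), Cfsg.Agent.GH.LowRankMathieu.idx_zero, h2]

theorem z22_mem : ((z22 : M24) : Equiv.Perm GolayPt) ∈ Spor.M22 :=
  mem22_of_tab tab_z22 (by decide +kernel) (by decide +kernel)

theorem x22_mem : ((x22 : M24) : Equiv.Perm GolayPt) ∈ Spor.M22 :=
  mem22_of_tab tab_x22 (by decide +kernel) (by decide +kernel)

/-- a subgroup of the permutation group containing two elements of `M₂₄` -/
theorem hasMS_perm {z x : M24} (hz : z * z = 1) (hx : x ^ 3 = 1) (h5 : (z * x) ^ 5 = 1) (hne : x ≠ 1)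
    (H : Subgroup (Equiv.Perm GolayPt)) (hzH : (z : Equiv.Perm GolayPt) ∈ H) (hxH : (x : Equiv.Perm GolayPt) ∈ H) :
    HasMS ↥H := by
  have h1 : (z : Equiv.Perm GolayPt) * z = 1 := congrArg Subtype.val hz
  have h2 : (x : Equiv.Perm GolayPt) ^ 3 = 1 := congrArg Subtype.val hx
  have h3 : ((z : Equiv.Perm GolayPt) * x) ^ 5 = 1 := congrArg Subtype.val h5
  exact hasMS_sub h1 h2 h3 (fun h => hne (Subtype.ext h)) H hzH hxH

theorem hasMS_M22 : HasMS ↥Spor.M22 := hasMS_perm z22_sq x22_cube zx22_five x22_ne _ z22_mem x22_mem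

theorem dd_of_tab {g : M24} {P : ℕ} (hg : IsTab g P)
    (h : ∀ p ∈ Cfsg.Agent.SporadicStructure.M11InvPerms.dd, ∀ q : GolayPt, idx q = papp P (idx p) →
      q ∈ Cfsg.Agent.SporadicStructure.M11InvPerms.dd)
    (h0 : papp P 0 = 0) : ((g : M24) : Equiv.Perm GolayPt) ∈ Spor.M11 := by
  refine ⟨Cfsg.Agent.MTwelveType.SylowModel.mem_M12 g.2 fun p hp => h p hp _ (hg p), ?_⟩
  show _ ∈ MulAction.stabilizer _ _
  rw [MulAction.mem_stabilizer_iff]
  apply idx_injective
  show idx ((g : Equiv.Perm GolayPt) (some 0)) = idx (some 0)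
  rw [hg (some 0), Cfsg.Agent.GH.LowRankMathieu.idx_zero, h0]

theorem z11_mem : ((z11 : M24) : Equiv.Perm GolayPt) ∈ Spor.M11 :=
  dd_of_tab tab_z11 (by decide +kernel) (by decide +kernel)

theorem x11_mem : ((x11 : M24) : Equiv.Perm GolayPt) ∈ Spor.M11 :=
  dd_of_tab tab_x11 (by decide +kernel) (by decide +kernel)

theorem hasMS_M11 : HasMS ↥Spor.M11 := hasMS_perm z11_sq x11_cube zx11_five x11_ne _ z11_mem x11_mem

theorem hasMS_of_m11 {G : Type*} [Group G] (h : Spor.IsoM11 G) : HasMS G := by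
  obtain ⟨e⟩ := h
  exact hasMS_M11.congr e.symm

theorem hasMS_of_m12 {G : Type*} [Group G] (h : Spor.IsoM12 G) : HasMS G := by
  obtain ⟨e⟩ := h
  exact (hasMS_M11.of_le inf_le_left).congr e.symm

theorem hasMS_of_m22 {G : Type*} [Group G] (h : Spor.IsoM22 G) : HasMS G := by
  obtain ⟨e⟩ := h
  exact hasMS_M22.congr e.symm

theorem hasMS_of_m23 {G : Type*} [Group G] (h : Spor.IsoM23 G) : HasMS G := by
  obtain ⟨e⟩ := h
  exact (hasMS_M22.of_le inf_le_left).congr e.symm

theorem hasMS_M24 : HasMS ↥M24 := hasMS_M22.of_le (inf_le_left.trans inf_le_left)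

theorem hasMS_of_m24 {G : Type*} [Group G] (h : Spor.IsoM24 G) : HasMS G := by
  obtain ⟨e⟩ := h
  exact hasMS_M24.congr e.symm

/-! ### Conway groups -/

open Cfsg.Agent.SporadicA.Co0Mono (permCo0 permCo0_smul permMap)

/-- `(0, 4, -4, 0, …)` -/
def vecW : GolayPt → ℤ := fun p => if p = some 1 then 4 else if p = none then -4 else 0

theorem vecW_mem : vecW ∈ leechSet :=
  mem_leechSet_of_const_mod_four vecW 0 0 (by decide) (by decide) (by decide)

def leechW : leechLattice := ⟨vecW, AddSubgroup.subset_closure vecW_mem⟩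

theorem perm_ne : permCo0 x22 ≠ 1 := by
  intro h
  have h1 : permCo0 x22 • leechW = leechW := by rw [h, one_smul]
  have h2 := congrArg (fun v : leechLattice => (v : GolayPt → ℤ) (some 8)) h1
  simp only [permCo0_smul] at h2
  change vecW (((x22 : M24) : Equiv.Perm GolayPt).symm (some 8)) = vecW (some 8) at h2
  rw [← x22_one, Equiv.symm_apply_apply, x22_one] at h2
  exact absurd h2 (by decide)

theorem perm_z : permCo0 z22 * permCo0 z22 = 1 := by rw [← map_mul, z22_sq, map_one]
theorem perm_x : permCo0 x22 ^ 3 = 1 := by rw [← map_pow, x22_cube, map_one]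
theorem perm_zx : (permCo0 z22 * permCo0 x22) ^ 5 = 1 := by rw [← map_mul, ← map_pow, zx22_five, map_one]

theorem hasMS_Co0 : HasMS ↥Co0 := hasMS_of_235 _ _ perm_z perm_x perm_zx perm_ne

theorem hasMS_co_sub (H : Subgroup (Equiv.Perm leechLattice))
    (hH : ∀ g : M24, ((g : M24) : Equiv.Perm GolayPt) ∈ Spor.M22 →
      ((permCo0 g : Co0) : Equiv.Perm leechLattice) ∈ H) : HasMS ↥H :=
  hasMS_sub (congrArg Subtype.val perm_z) (congrArg Subtype.val perm_x) (congrArg Subtype.val perm_zx)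
    (fun h => perm_ne (Subtype.ext h)) _ (hH _ z22_mem) (hH _ x22_mem)

theorem perm_fix {g : M24} (hg : ((g : M24) : Equiv.Perm GolayPt) ∈ Spor.M22) (v : leechLattice) (f : Prop → Prop → ℤ)
    (hv : ∀ p : GolayPt, (v : GolayPt → ℤ) p = f (p = none) (p = some 0)) :
    ((permCo0 g : Co0) : Equiv.Perm leechLattice) ∈ MulAction.stabilizer (Equiv.Perm leechLattice) v := by
  rw [MulAction.mem_stabilizer_iff]
  show permCo0 g • v = v
  apply Subtype.ext
  rw [permCo0_smul]
  funext p
  change (v : GolayPt → ℤ) (((g : M24) : Equiv.Perm GolayPt).symm p) = _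
  have h1 : ((g : M24) : Equiv.Perm GolayPt) none = none := hg.1.2
  have h2 : ((g : M24) : Equiv.Perm GolayPt) (some 0) = some 0 := hg.2
  have e1 : (((g : M24) : Equiv.Perm GolayPt).symm p = none) = (p = none) := by
    rw [Equiv.symm_apply_eq, h1]
  have e2 : (((g : M24) : Equiv.Perm GolayPt).symm p = some 0) = (p = some 0) := by
    rw [Equiv.symm_apply_eq, h2]
  rw [hv, hv, e1, e2]

open Classical in
theorem fix_U {g : M24} (hg : ((g : M24) : Equiv.Perm GolayPt) ∈ Spor.M22) :
    ((permCo0 g : Co0) : Equiv.Perm leechLattice) ∈ MulAction.stabilizer (Equiv.Perm leechLattice) leechU :=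
  perm_fix hg _ (fun a b => if a ∨ b then 4 else 0) fun p => by
    change vecU p = _
    unfold vecU
    congr

open Classical in
theorem fix_V {g : M24} (hg : ((g : M24) : Equiv.Perm GolayPt) ∈ Spor.M22) :
    ((permCo0 g : Co0) : Equiv.Perm leechLattice) ∈ MulAction.stabilizer (Equiv.Perm leechLattice) leechV :=
  perm_fix hg _ (fun a _ => if a then -5 else -1) fun p => by
    change vecV p = _
    unfold vecV
    congr

open Classical in
theorem fix_U' {g : M24} (hg : ((g : M24) : Equiv.Perm GolayPt) ∈ Spor.M22) :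
    ((permCo0 g : Co0) : Equiv.Perm leechLattice) ∈ MulAction.stabilizer (Equiv.Perm leechLattice) leechU' :=
  perm_fix hg _ (fun a b => if a then 4 else if b then -4 else 0) fun p => by
    change vecU' p = _
    unfold vecU'
    congr

theorem hasMS_of_co1 {G : Type*} [Group G] (h : Spor.IsoCo1 G) : HasMS G := by
  obtain ⟨e⟩ := h
  exact hasMS_Co0.quot_center.congr e.symm

theorem hasMS_of_co2 {G : Type*} [Group G] (h : Spor.IsoCo2 G) : HasMS G := by
  obtain ⟨e⟩ := h
  exact (hasMS_co_sub Spor.Co2 fun g hg => ⟨(permCo0 g).2, fix_U hg⟩).congr e.symm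

theorem hasMS_of_co3 {G : Type*} [Group G] (h : Spor.IsoCo3 G) : HasMS G := by
  obtain ⟨e⟩ := h
  exact (hasMS_co_sub Spor.Co3 fun g hg => ⟨(permCo0 g).2, fix_V hg⟩).congr e.symm

theorem hasMS_of_mcl {G : Type*} [Group G] (h : Spor.IsoMcL G) : HasMS G := by
  obtain ⟨e⟩ := h
  exact (hasMS_co_sub Spor.McL fun g hg => ⟨⟨(permCo0 g).2, fix_V hg⟩, fix_U hg⟩).congr e.symm

theorem hasMS_of_hs {G : Type*} [Group G] (h : Spor.IsoHS G) : HasMS G := by
  obtain ⟨e⟩ := h
  exact (hasMS_co_sub Spor.HS fun g hg => ⟨⟨(permCo0 g).2, fix_V hg⟩, fix_U' hg⟩).congr e.symm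

end Cfsg.Agent.H46.MS
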