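import Cfsg.Agent.H46.MSTwist
import Cfsg.Agent.ChevalleyStructure.HMatDiagAll
import Cfsg.Agent.ChevalleyStructure.SL2Hom

/-!
# Minimal simple subgroups of `²F₄(q)` and `²G₂(q)` (helper46)

Two strongly orthogonal roots `r`, `s` and two field maps give a homomorphism of `SL₂`.
-/

set_option autoImplicit false

namespace Cfsg.Agent.H46.MS

open Matrix Subgroup Cfsg Cfsg.Lie Cfsg.Agent.ChevalleyStructure.Elts
open Cfsg.Agent.ChevalleyStructure.HMatDiagAll Cfsg.Agent.ChevalleyStructure.SL2Hom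

section

variable {K₀ K : Type*} [Field K₀] [Field K] {D : ChevalleyDatum}

/-- `φ_r` twisted by a field map -/
noncomputable def ph (hD : InList D) {r : ℕ} (hr : r < D.nroots) (f : K₀ →+* K) :
    Matrix.SpecialLinearGroup (Fin 2) K₀ →* GL D.Idx K :=
  (phi (ChevalleyStructure.SL2All.good_of_mem D hD r hr) K).comp (Matrix.SpecialLinearGroup.map f)

variable (hD : InList D) {r s : ℕ} (hr : r < D.nroots) (hs : s < D.nroots) (f f₁ f₂ : K₀ →+* K)

theorem ph_up (t : K₀) : ph hD hr f (ChevalleyStructure.SL2Hom.up t) = xG hD r (f t) := by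
  apply Units.ext
  rw [coe_xG]
  refine phi_upper (ChevalleyStructure.SL2All.good_of_mem D hD r hr) _ _ ?_
  ext i j
  change f ((!![1, t; 0, 1] : Matrix (Fin 2) (Fin 2) K₀) i j) = _
  fin_cases i <;> fin_cases j <;> simp

theorem ph_lo (t : K₀) : ph hD hr f (ChevalleyStructure.SL2Hom.lo t) = xG hD (D.neg r) (f t) := by
  apply Units.ext
  rw [coe_xG]
  refine phi_lower (ChevalleyStructure.SL2All.good_of_mem D hD r hr) _ _ ?_
  ext i j
  change f ((!![1, 0; t, 1] : Matrix (Fin 2) (Fin 2) K₀) i j) = _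
  fin_cases i <;> fin_cases j <;> simp

theorem ph_diag (g : Matrix.SpecialLinearGroup (Fin 2) K₀) (h01 : g.1 0 1 = 0) (h10 : g.1 1 0 = 0) :
    ((ph hD hr f g : GL D.Idx K) : Matrix D.Idx D.Idx K) =
      Matrix.diagonal (Sum.elim (fun _ => (1 : K)) (fun k : Fin D.nroots => f (g.1 0 0) ^ expo D r k.val)) := by
  have hdet := g.2
  rw [Matrix.det_fin_two, h01, zero_mul, sub_zero] at hdet
  have h0 : g.1 0 0 ≠ 0 := left_ne_zero_of_mul_eq_one hdet
  have h1 : f (g.1 1 1) = (f (g.1 0 0))⁻¹ := by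
    rw [← map_inv₀]
    congr 1
    exact eq_inv_of_mul_eq_one_right hdet
  have h2 : f (g.1 0 0) ≠ 0 := by simpa using h0
  rw [← Phi_diagonal (ChevalleyStructure.SL2All.good_of_mem D hD r hr) h2, ← h1]
  unfold ph
  rw [MonoidHom.comp_apply, coe_phi]
  have e01 : f (g.1 0 1) = 0 := by rw [h01, map_zero]
  have e10 : f (g.1 1 0) = 0 := by rw [h10, map_zero]
  show ChevalleyStructure.SL2Rep.Phi D r (f (g.1 0 0)) (f (g.1 0 1)) (f (g.1 1 0)) (f (g.1 1 1)) = _
  rw [e01, e10]

/-- strongly orthogonal roots -/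
def SO (D : ChevalleyDatum) (r s : ℕ) : Prop :=
  ∀ a ∈ [r, D.neg r], ∀ b ∈ [s, D.neg s], b < D.nroots ∧ a < D.nroots ∧ b ≠ a ∧ b ≠ D.neg a ∧ D.commTerms a b = []

theorem commute_of_so {a b : ℕ} (h : b < D.nroots ∧ a < D.nroots ∧ b ≠ a ∧ b ≠ D.neg a ∧ D.commTerms a b = [])
    (t u : K) : Commute (xG hD a t) (xG hD b u) := by
  obtain ⟨hb, ha, h1, h2, h3⟩ := h
  have key := S1025.result (F := K) D hD _ _ ha hb h1 h2 t u
  rw [ChevalleyDatum.commWord, h3] at key
  apply Units.ext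
  change D.x K a t * D.x K b u = D.x K b u * D.x K a t
  rw [key]
  simp [ChevalleyDatum.wordMat]

theorem ph_mem (S : Subgroup (GL D.Idx K)) (hu : ∀ t, xG hD r (f t) ∈ S) (hl : ∀ t, xG hD (D.neg r) (f t) ∈ S)
    (A : Matrix.SpecialLinearGroup (Fin 2) K₀) : ph hD hr f A ∈ S := by
  have h := mem_closure_SL2 A
  have hle : Subgroup.closure (Set.range (ChevalleyStructure.SL2Hom.up (F := K₀)) ∪ Set.range (lo (F := K₀))) ≤
      S.comap (ph hD hr f) := by
    rw [Subgroup.closure_le]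
    rintro _ (⟨t, rfl⟩ | ⟨t, rfl⟩)
    · show ph hD hr f _ ∈ S
      rw [ph_up]; exact hu t
    · show ph hD hr f _ ∈ S
      rw [ph_lo]; exact hl t
  exact hle h

theorem ph_commute (h : SO D r s) (A B : Matrix.SpecialLinearGroup (Fin 2) K₀) :
    Commute (ph hD hr f₁ A) (ph hD hs f₂ B) := by
  have h1 : ∀ a ∈ [r, D.neg r], ∀ t : K, xG hD a t ∈ Subgroup.centralizer {ph hD hs f₂ B} := by
    intro a ha t
    rw [Subgroup.mem_centralizer_singleton_iff]
    have h2 : ph hD hs f₂ B ∈ Subgroup.centralizer {xG hD a t} :=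
      ph_mem hD hs f₂ _ (fun u => Subgroup.mem_centralizer_singleton_iff.2
          (commute_of_so hD (h a ha s (by simp)) t (f₂ u)).symm.eq)
        (fun u => Subgroup.mem_centralizer_singleton_iff.2
          (commute_of_so hD (h a ha (D.neg s) (by simp)) t (f₂ u)).symm.eq) B
    exact (Subgroup.mem_centralizer_singleton_iff.1 h2).symm
  exact (Subgroup.mem_centralizer_singleton_iff.1 (ph_mem hD hr f₁ (Subgroup.centralizer {ph hD hs f₂ B})
    (fun t => h1 r (by simp) _) (fun t => h1 (D.neg r) (by simp) _) A))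

/-- the pair homomorphism -/
noncomputable def psi (h : SO D r s) : Matrix.SpecialLinearGroup (Fin 2) K₀ →* GL D.Idx K :=
  (MonoidHom.noncommCoprod (ph hD hr f₁) (ph hD hs f₂) (ph_commute hD hr hs f₁ f₂ h)).comp
    (MonoidHom.prod (MonoidHom.id _) (MonoidHom.id _))

theorem psi_apply (h : SO D r s) (A : Matrix.SpecialLinearGroup (Fin 2) K₀) :
    psi hD hr hs f₁ f₂ h A = ph hD hr f₁ A * ph hD hs f₂ A := rfl

theorem psi_mem (h : SO D r s) (S : Subgroup (GL D.Idx K))
    (hu : ∀ t, xG hD r (f₁ t) * xG hD s (f₂ t) ∈ S)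
    (hl : ∀ t, xG hD (D.neg r) (f₁ t) * xG hD (D.neg s) (f₂ t) ∈ S)
    (A : Matrix.SpecialLinearGroup (Fin 2) K₀) : psi hD hr hs f₁ f₂ h A ∈ S := by
  have h' := mem_closure_SL2 A
  have hle : Subgroup.closure (Set.range (ChevalleyStructure.SL2Hom.up (F := K₀)) ∪ Set.range (lo (F := K₀))) ≤
      S.comap (psi hD hr hs f₁ f₂ h) := by
    rw [Subgroup.closure_le]
    rintro _ (⟨t, rfl⟩ | ⟨t, rfl⟩)
    · show psi hD hr hs f₁ f₂ h _ ∈ S
      rw [psi_apply, ph_up, ph_up]; exact hu t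
    · show psi hD hr hs f₁ f₂ h _ ∈ S
      rw [psi_apply, ph_lo, ph_lo]; exact hl t
  exact hle h'

theorem expo_self (D : ChevalleyDatum) (r : ℕ) : expo D r r = 2 := by
  rw [expo_def, if_pos rfl]

theorem exists_sq_ne_one (K₀ : Type*) [Field K₀] [Fintype K₀] (hK : 4 ≤ Fintype.card K₀) :
    ∃ c : K₀, c ≠ 0 ∧ c ^ 2 ≠ 1 := by
  classical
  by_contra hcon
  push Not at hcon
  have hsub : (Finset.univ : Finset K₀) ⊆ {0, 1, -1} := by
    intro c _
    by_cases h0 : c = 0
    · simp [h0]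
    · have := hcon c h0
      rw [sq, mul_self_eq_one_iff] at this
      simp [this]
  have h1 := Finset.card_le_card hsub
  rw [Finset.card_univ] at h1
  have h2 := Finset.card_le_three (a := (0 : K₀)) (b := 1) (c := -1)
  omega

include hD in
theorem hasMS_of_pair {K₀ : Type*} [Field K₀] [Fintype K₀] (hr : r < D.nroots) (hs : s < D.nroots)
    (hK : 4 ≤ Fintype.card K₀) (f₁ f₂ : K₀ →+* K)
    (h : SO D r s) (he : expo D s r = 0)
    (hc : (2 : K₀) = 0 ∨ ∀ k < D.nroots, Even (expo D r k + expo D s k))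
    (S : Subgroup (GL D.Idx K))
    (hu : ∀ t, xG hD r (f₁ t) * xG hD s (f₂ t) ∈ S)
    (hl : ∀ t, xG hD (D.neg r) (f₁ t) * xG hD (D.neg s) (f₂ t) ∈ S) : HasMS ↥S := by
  have hmem := psi_mem hD hr hs f₁ f₂ h S hu hl
  have hS : HasMS ↥(psi hD hr hs f₁ f₂ h).range := by
    refine hasMS_of_sl_two hK (psi hD hr hs f₁ f₂ h).rangeRestrict ?_ ?_
    · intro x hx
      apply Subtype.ext
      show psi hD hr hs f₁ f₂ h x = 1
      rw [ClassicalGeometry.PSL2Basic.mem_center_SL2_iff] at hx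
      rcases hx with rfl | rfl
      · exact map_one _
      rcases hc with h2 | he'
      · have : (-1 : Matrix.SpecialLinearGroup (Fin 2) K₀) = 1 := by
          have h1 : (-1 : K₀) = 1 := by
            rw [neg_eq_iff_add_eq_zero, one_add_one_eq_two, h2]
          apply Subtype.ext
          ext i j
          fin_cases i <;> fin_cases j <;> simp [h1]
        rw [this, map_one]
      · have h00 : ((-1 : Matrix.SpecialLinearGroup (Fin 2) K₀) : Matrix (Fin 2) (Fin 2) K₀) 0 0 = -1 := by simp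
        have h01 : ((-1 : Matrix.SpecialLinearGroup (Fin 2) K₀) : Matrix (Fin 2) (Fin 2) K₀) 0 1 = 0 := by simp
        have h10 : ((-1 : Matrix.SpecialLinearGroup (Fin 2) K₀) : Matrix (Fin 2) (Fin 2) K₀) 1 0 = 0 := by simp
        rw [psi_apply]
        apply Units.ext
        rw [Units.val_mul, ph_diag hD hr f₁ _ h01 h10, ph_diag hD hs f₂ _ h01 h10,
          Matrix.diagonal_mul_diagonal, Units.val_one, ← Matrix.diagonal_one]
        congr 1
        funext k
        rcases k with k | k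
        · simp
        · simp only [Sum.elim_inr]
          rw [h00, map_neg, map_one, map_neg, map_one, ← zpow_add₀ (by simp)]
          exact (he' k.1 k.2).neg_one_zpow
    · obtain ⟨c, hc0, hc1⟩ := exists_sq_ne_one K₀ hK
      obtain ⟨A, hA⟩ : ∃ A : Matrix.SpecialLinearGroup (Fin 2) K₀, A.1 = !![c, 0; 0, c⁻¹] :=
        ⟨⟨!![c, 0; 0, c⁻¹], by simp [Matrix.det_fin_two, hc0]⟩, rfl⟩
      refine ⟨A, fun h1 => ?_⟩
      have h2 := congrArg Subtype.val h1
      change psi hD hr hs f₁ f₂ h A = 1 at h2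
      rw [psi_apply] at h2
      have h3 := congrArg (Units.val) h2
      have h01 : A.1 0 1 = 0 := by rw [hA]; rfl
      have h10 : A.1 1 0 = 0 := by rw [hA]; rfl
      have h00 : A.1 0 0 = c := by rw [hA]; rfl
      rw [Units.val_mul, ph_diag hD hr f₁ _ h01 h10, ph_diag hD hs f₂ _ h01 h10,
          Matrix.diagonal_mul_diagonal, Units.val_one, h00] at h3
      have h4 := congrFun (congrFun h3 (Sum.inr ⟨r, hr⟩)) (Sum.inr ⟨r, hr⟩)
      rw [Matrix.diagonal_apply_eq, Matrix.one_apply_eq] at h4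
      simp only [Sum.elim_inr, expo_self, he, zpow_zero, mul_one] at h4
      apply hc1
      apply f₁.injective
      rw [map_pow, map_one]
      exact_mod_cast h4
  refine hS.of_le ?_
  rintro _ ⟨A, rfl⟩
  exact hmem A

end

/-! ### `²F₄` -/

theorem so_F4 : SO chevF4 33 24 := by
  intro a ha b hb
  revert a b
  decide +kernel

theorem pow_two_pow_hom (K : Type) [Field K] [CharP K 2] (m : ℕ) (t : K) :
    iterateFrobenius K 2 m t = t ^ 2 ^ m := rfl

theorem charP_of_card {K : Type} [Field K] [Fintype K] {p n : ℕ} (hp : p.Prime) (h : Fintype.card K = p ^ n) :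
    CharP K p := by
  obtain ⟨r, hr⟩ := CharP.exists K
  have hr' : r.Prime := (CharP.char_is_prime_or_zero K r).resolve_right fun h0 => by
    subst h0
    have := CharP.charP_to_charZero K
    exact not_finite K
  have hdvd : r ∣ Fintype.card K := by
    rw [← CharP.cast_eq_zero_iff K r]
    exact FiniteField.cast_card_eq_zero K
  rw [h] at hdvd
  have := (Nat.prime_dvd_prime_iff_eq hr' hp).1 (hr'.dvd_of_dvd_pow hdvd)
  rwa [this] at hr

theorem hasMS_of_iso2F4 {G : Type*} [Group G] (h : Iso2F4 G) : HasMS G := by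
  obtain ⟨K, _, _, m, hm, hc, ⟨e⟩⟩ := h
  have hch : CharP K 2 := charP_of_card Nat.prime_two hc
  have h2 : (2 : K) = 0 := by exact_mod_cast CharP.cast_eq_zero K 2
  have hK : 4 ≤ Fintype.card K := by
    rw [hc]
    calc 4 ≤ 2 ^ 3 := by norm_num
      _ ≤ _ := Nat.pow_le_pow_right (by norm_num) (by omega)
  have hD : InList chevF4 := by simp
  refine (hasMS_of_pair hD (r := 33) (s := 24) (by decide) (by decide) hK (iterateFrobenius K 2 m) (RingHom.id K)
    so_F4 (by decide +kernel) (Or.inl h2) (twistedF4 K (2 ^ m)) ?_ ?_).congr e.symm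
  · intro t
    have : wordG (F := K) (D := chevF4) hD [(33, t ^ 2 ^ m), (24, t)] ∈ twistedF4 K (2 ^ m) :=
      xG_mem_genSubgroup _ (Or.inl ⟨t, Or.inl rfl⟩)
    rw [wordG_cons, wordG_cons, wordG_nil, mul_one] at this
    exact this
  · intro t
    have : wordG (F := K) (D := chevF4) hD [(14, t ^ 2 ^ m), (23, t)] ∈ twistedF4 K (2 ^ m) :=
      xG_mem_genSubgroup _ (Or.inl ⟨t, Or.inr rfl⟩)
    rw [wordG_cons, wordG_cons, wordG_nil, mul_one] at this
    exact this

/-! ### `²G₂` -/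

theorem so_G2 : SO chevG2 8 10 := by
  intro a ha b hb
  revert a b
  decide +kernel

theorem hasMS_of_ree {G : Type*} [Group G] (h : IsoRee G) : HasMS G := by
  obtain ⟨K, _, _, m, hm, hc, ⟨e⟩⟩ := h
  have hch : CharP K 3 := charP_of_card Nat.prime_three hc
  have : Fact (Nat.Prime 3) := ⟨Nat.prime_three⟩
  have hK : 4 ≤ Fintype.card K := by
    rw [hc]
    calc 4 ≤ 3 ^ 3 := by norm_num
      _ ≤ _ := Nat.pow_le_pow_right (by norm_num) (by omega)
  have hD : InList chevG2 := by simp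
  refine (hasMS_of_pair hD (r := 8) (s := 10) (by decide) (by decide) hK (iterateFrobenius K 3 m) (RingHom.id K)
    so_G2 (by decide +kernel) (Or.inr (by decide +kernel)) (twistedG2 K (3 ^ m)) ?_ ?_).congr e.symm
  · intro u
    have h1 : wordG (F := K) (D := chevG2) hD (reeWordU (3 ^ m) 0 u 0) ∈ twistedG2 K (3 ^ m) :=
      xG_mem_genSubgroup _ ⟨0, u, 0, Or.inl rfl⟩
    have h2 : wordG (F := K) (D := chevG2) hD (reeWordU (3 ^ m) 0 u 0) =
        xG hD 8 (iterateFrobenius K 3 m u) * xG hD 10 (RingHom.id K u) := by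
      unfold reeWordU
      simp only [wordG_cons, wordG_nil]
      simp [xG_zero, g2ab, g2aaab]
      rfl
    rw [← h2]
    exact h1
  · intro u
    have h1 : wordG (F := K) (D := chevG2) hD (reeWordV (3 ^ m) 0 (-u) 0) ∈ twistedG2 K (3 ^ m) :=
      xG_mem_genSubgroup _ ⟨0, -u, 0, Or.inr rfl⟩
    have h2 : wordG (F := K) (D := chevG2) hD (reeWordV (3 ^ m) 0 (-u) 0) =
        xG hD (chevG2.neg 8) (iterateFrobenius K 3 m u) * xG hD (chevG2.neg 10) (RingHom.id K u) := by
      have ho : Odd (3 ^ m) := Odd.pow (by decide)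
      unfold reeWordV reeWordU ChevalleyDatum.negWord
      simp only [List.map_cons, List.map_nil, wordG_cons, wordG_nil, ho.neg_pow]
      simp [xG_zero]
      rfl
    rw [← h2]
    exact h1

end Cfsg.Agent.H46.MS
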