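import Cfsg.Agent.H46.MinSub
import Cfsg.Prelude.Def_Classification2

/-!
# Minimal simple subgroups from presentations (helper46)

`hasMS_of_235`: the triangle group `(2,3,5)`; `hasMS_of_chain`: four involutions forming a Coxeter chain of type `A₄`.
`all_eq`: if two adjacent nodes of a connected Coxeter graph coincide then all nodes do.
-/

set_option autoImplicit false

namespace Cfsg.Agent.H46.MS

open Subgroup Cfsg Cfsg.Spor

section

variable {G : Type*} [Group G]

theorem conj_pow_eq_one {g x : G} {n : ℕ} (h : x ^ n = 1) : (g * x * g⁻¹) ^ n = 1 := by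
  rw [conj_pow, h, mul_one, mul_inv_cancel]

/-- two elements of order three -/
theorem hasMS_of_pair_three (x g : G) (hx : x ^ 3 = 1) (hg : g ^ 3 = 1) (h2 : (x * (g * x * g⁻¹)) ^ 2 = 1)
    (hne : x ≠ 1) : HasMS G := by
  refine hasMS_of_triple x (g * x * g⁻¹) (g * g * x * (g * g)⁻¹) hx (conj_pow_eq_one hx) (conj_pow_eq_one hx) h2 ?_ ?_ hne
  · -- `x * x^{gg} = ` conjugate of `(x^g * x)` by `g g`
    have h3 : (g * x * g⁻¹ * x) ^ 2 = 1 := Lib.AltCarmichael.swap_rel h2
    have e : x * (g * g * x * (g * g)⁻¹) = (g * g) * (g * x * g⁻¹ * x) * (g * g)⁻¹ := by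
      have h4 : g * g * g = 1 := by rw [← hg, pow_succ, pow_two]
      calc x * (g * g * x * (g * g)⁻¹) = (g * g * g) * x * (g * g * g)⁻¹ * (g * g * x * (g * g)⁻¹) := by
            rw [h4]; group
        _ = _ := by group
    rw [e]
    exact conj_pow_eq_one h3
  · have e : g * x * g⁻¹ * (g * g * x * (g * g)⁻¹) = g * (x * (g * x * g⁻¹)) * g⁻¹ := by group
    rw [e]
    exact conj_pow_eq_one h2

/-- the triangle group `(2,3,5)` -/
theorem hasMS_of_235 (z x : G) (hz : z * z = 1) (hx : x ^ 3 = 1) (h5 : (z * x) ^ 5 = 1) (hne : x ≠ 1) : HasMS G := by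
  have hzi : z⁻¹ = z := inv_eq_of_mul_eq_one_left hz
  have hg : (z * x * z) ^ 3 = 1 := by
    have := conj_pow_eq_one (g := z) hx
    rwa [hzi] at this
  refine hasMS_of_pair_three x (z * x * z) hx hg ?_ hne
  have h1 : z * x * z * x * z = x⁻¹ * z * x⁻¹ * z * x⁻¹ := by
    have h2 : z * x * z * x * z * (x * z * x * z * x) = 1 := by
      rw [← h5]; simp only [pow_succ, pow_zero, one_mul, mul_assoc]
    have h3 := eq_inv_of_mul_eq_one_left h2
    rw [h3]
    simp only [mul_inv_rev, hzi, mul_assoc]
  have hxx : x⁻¹ * x⁻¹ = x := by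
    have : x * x * x = 1 := by rw [← hx, pow_succ, pow_two]
    calc x⁻¹ * x⁻¹ = x⁻¹ * x⁻¹ * (x * x * x) := by rw [this, mul_one]
      _ = x := by group
  have h2 : x * (z * x * z * x * (z * x * z)⁻¹) = z * x⁻¹ * z * x * z := by
    calc x * (z * x * z * x * (z * x * z)⁻¹) = x * (z * x * z * x * z) * x⁻¹ * z := by
          simp only [mul_inv_rev, hzi, mul_assoc]
      _ = x * (x⁻¹ * z * x⁻¹ * z * x⁻¹) * x⁻¹ * z := by rw [h1]
      _ = z * x⁻¹ * z * (x⁻¹ * x⁻¹) * z := by group
      _ = _ := by rw [hxx]
  rw [h2]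
  have h3 : z * x⁻¹ * z * x * z = (z * x⁻¹) * z * (z * x⁻¹)⁻¹ := by
    simp only [mul_inv_rev, hzi, inv_inv, mul_assoc]
  rw [h3]
  apply conj_pow_eq_one
  rw [pow_two, hz]

/-- three involutions of type `H₃` -/
theorem hasMS_of_H3 (a b c : G) (hb : b * b = 1) (hc : c * c = 1) (hac : (a * c) ^ 2 = 1)
    (hab : (a * b) ^ 5 = 1) (hcb : (c * b) ^ 3 = 1) (hne : c ≠ b) : HasMS G := by
  have hci : c⁻¹ = c := inv_eq_of_mul_eq_one_left hc
  refine hasMS_of_235 (a * c) (c * b) (by rw [← pow_two]; exact hac) hcb ?_ ?_
  · have : a * c * (c * b) = a * b := by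
      calc a * c * (c * b) = a * (c * c) * b := by group
        _ = _ := by rw [hc, mul_one]
    rw [this]; exact hab
  · intro h
    have := eq_inv_of_mul_eq_one_left h
    apply hne
    rw [this, inv_eq_of_mul_eq_one_left hb]

theorem sq_inv {a : G} (ha : a * a = 1) : a⁻¹ = a := inv_eq_of_mul_eq_one_left ha

theorem comm_of_sq {a b : G} (ha : a * a = 1) (hb : b * b = 1) (h : (a * b) ^ 2 = 1) : a * b = b * a := by
  rw [pow_two] at h
  have := eq_inv_of_mul_eq_one_left h
  rw [mul_inv_rev, sq_inv ha, sq_inv hb] at this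
  exact this

theorem braid_of_cube {a b : G} (ha : a * a = 1) (hb : b * b = 1) (h : (a * b) ^ 3 = 1) : a * b * a = b * a * b := by
  have h1 : a * b * a * (b * a * b) = 1 := by
    rw [← h]; simp only [pow_succ, pow_zero, one_mul, mul_assoc]
  have := eq_inv_of_mul_eq_one_left h1
  rw [this]
  simp only [mul_inv_rev, sq_inv ha, sq_inv hb, mul_assoc]

/-- four involutions in a chain of type `A₄` -/
theorem hasMS_of_chain (a b c d : G) (ha : a * a = 1) (hb : b * b = 1) (hc : c * c = 1) (hd : d * d = 1)
    (hab : (a * b) ^ 3 = 1) (hbc : (b * c) ^ 3 = 1) (hcd : (c * d) ^ 3 = 1)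
    (hac : (a * c) ^ 2 = 1) (had : (a * d) ^ 2 = 1) (hbd : (b * d) ^ 2 = 1) (hne : a ≠ b) : HasMS G := by
  have cac := comm_of_sq ha hc hac
  have cad := comm_of_sq ha hd had
  have cbd := comm_of_sq hb hd hbd
  have bab := braid_of_cube ha hb hab
  have bbc := braid_of_cube hb hc hbc
  have bcd := braid_of_cube hc hd hcd
  have hci := sq_inv hc
  have hdi := sq_inv hd
  have hai := sq_inv ha
  have hbi := sq_inv hb
  -- `y = c (a b) c`, `z = d y d`
  have hy : (c * (a * b) * c) ^ 3 = 1 := by
    have := conj_pow_eq_one (g := c) hab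
    rwa [hci] at this
  have hz : (d * (c * (a * b) * c) * d) ^ 3 = 1 := by
    have := conj_pow_eq_one (g := d) hy
    rwa [hdi] at this
  have hxy : (a * b * (c * (a * b) * c)) ^ 2 = 1 := by
    have e : a * b * (c * (a * b) * c) = (b * a) * (c * a) * (b * a)⁻¹ := by
      calc a * b * (c * (a * b) * c) = a * b * (c * a) * b * c := by group
        _ = a * b * (a * c) * b * c := by rw [cac]
        _ = (a * b * a) * (c * b * c) := by group
        _ = (b * a * b) * (b * c * b) := by rw [bab, ← bbc]
        _ = b * a * (b * b) * c * b := by group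
        _ = b * a * c * b := by rw [hb, mul_one]
        _ = b * a * c * (a * a) * b := by rw [ha, mul_one]
        _ = (b * a) * (c * a) * (b * a)⁻¹ := by rw [mul_inv_rev, hai, hbi]; group
    rw [e]
    apply conj_pow_eq_one
    rw [pow_two, ← cac]
    calc a * c * (a * c) = a * (c * a) * c := by group
      _ = a * (a * c) * c := by rw [cac]
      _ = (a * a) * (c * c) := by group
      _ = 1 := by rw [ha, hc, one_mul]
  have hxz : (a * b * (d * (c * (a * b) * c) * d)) ^ 2 = 1 := by
    have e : a * b * (d * (c * (a * b) * c) * d) = d * (a * b * (c * (a * b) * c)) * d⁻¹ := by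
      rw [hdi]
      calc a * b * (d * (c * (a * b) * c) * d) = a * (b * d) * (c * (a * b) * c) * d := by group
        _ = (a * d) * b * (c * (a * b) * c) * d := by rw [cbd]; group
        _ = _ := by rw [cad]; group
    rw [e]
    exact conj_pow_eq_one hxy
  have hyz : (c * (a * b) * c * (d * (c * (a * b) * c) * d)) ^ 2 = 1 := by
    have e : c * (a * b) * c * (d * (c * (a * b) * c) * d) = c * (a * b * (d * (c * (a * b) * c) * d)) * c⁻¹ := by
      have e1 : c * (d * (c * (a * b) * c) * d) * c = d * (c * (a * b) * c) * d := by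
        have e2 : d * (a * b) * d = a * b := by
          calc d * (a * b) * d = (d * a) * b * d := by group
            _ = a * (d * b) * d := by rw [← cad]; group
            _ = a * b * (d * d) := by rw [← cbd]; group
            _ = _ := by rw [hd, mul_one]
        calc c * (d * (c * (a * b) * c) * d) * c = (c * d * c) * (a * b) * (c * d * c) := by group
          _ = (d * c * d) * (a * b) * (d * c * d) := by rw [bcd]
          _ = d * c * (d * (a * b) * d) * c * d := by group
          _ = d * c * (a * b) * c * d := by rw [e2]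
          _ = _ := by group
      rw [hci]
      calc c * (a * b) * c * (d * (c * (a * b) * c) * d)
          = c * (a * b) * c * (c * (d * (c * (a * b) * c) * d) * c) := by rw [e1]
        _ = c * (a * b) * (c * c) * (d * (c * (a * b) * c) * d) * c := by group
        _ = c * (a * b) * (d * (c * (a * b) * c) * d) * c := by rw [hc, mul_one]
        _ = _ := by group
    rw [e]
    exact conj_pow_eq_one hxz
  refine hasMS_of_triple (a * b) _ _ hab hy hz hxy hxz hyz ?_
  intro h
  have := eq_inv_of_mul_eq_one_left h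
  exact hne (this.trans hbi)

end

/-! ### Coxeter presentations -/

section cox

variable {α : Type*} [DecidableEq α] (edges : List (α × ℕ × α)) (extra : List (FreeGroup α))

/-- the generator -/
def gen (x : α) : CoxPresented α edges extra := PresentedGroup.of x

theorem gen_rel {x y : α} (hx : x ∈ coxNodes edges) (hy : y ∈ coxNodes edges) {n : ℕ} (h : coxLabel edges x y = n) :
    (gen edges extra x * gen edges extra y) ^ n = 1 := by
  have h1 : (FreeGroup.of x * FreeGroup.of y) ^ coxLabel edges x y ∈ coxRelators edges ∪ {r | r ∈ extra} :=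
    Or.inl ⟨x, hx, y, hy, rfl⟩
  have h2 := PresentedGroup.one_of_mem h1
  rw [map_pow, map_mul, h] at h2
  exact h2

theorem gen_sq {x : α} (hx : x ∈ coxNodes edges) : gen edges extra x * gen edges extra x = 1 := by
  have := gen_rel edges extra hx hx (n := 1) (by rw [coxLabel, if_pos rfl])
  rwa [pow_one] at this

theorem extra_rel {w : FreeGroup α} (hw : w ∈ extra) :
    (QuotientGroup.mk w : CoxPresented α edges extra) = 1 :=
  PresentedGroup.one_of_mem (rels := coxRelators edges ∪ {r | r ∈ extra}) (Or.inr hw)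

/-- the steps of a spreading argument: `(w, x, y)` with `x`, `y` known, `w` joined to `y` by 3, to `x` by 2 -/
def chk : List α → List (α × α × α) → Bool
  | _, [] => true
  | K, (w, x, y) :: l => K.contains x && K.contains y && (coxNodes edges).contains w && (coxNodes edges).contains x &&
      (coxNodes edges).contains y && decide (coxLabel edges x w = 2) && decide (coxLabel edges y w = 3) &&
      chk (w :: K) l

theorem eq_of_chk {t : CoxPresented α edges extra} (l : List (α × α × α)) :
    ∀ K : List α, (∀ u ∈ K, gen edges extra u = t) → chk edges K l = true →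
      ∀ u ∈ K ++ l.map Prod.fst, gen edges extra u = t := by
  induction l with
  | nil => intro K hK _ u hu; exact hK u (by simpa using hu)
  | cons p l ih =>
    obtain ⟨w, x, y⟩ := p
    intro K hK hc
    simp only [chk, Bool.and_eq_true, List.contains_iff_mem, decide_eq_true_eq] at hc
    obtain ⟨⟨⟨⟨⟨⟨⟨hx, hy⟩, hwn⟩, hxn⟩, hyn⟩, h2⟩, h3⟩, hl⟩ := hc
    have r2 := gen_rel edges extra hxn hwn h2
    have r3 := gen_rel edges extra hyn hwn h3
    rw [hK x hx] at r2
    rw [hK y hy] at r3
    have r1 : t * gen edges extra w = 1 := by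
      calc t * gen edges extra w = (t * gen edges extra w) ^ 2 * (t * gen edges extra w) := by rw [r2, one_mul]
        _ = (t * gen edges extra w) ^ 3 := by rw [pow_succ _ 2]
        _ = 1 := r3
    have ht : gen edges extra w = t := by
      have h4 := eq_inv_of_mul_eq_one_left r1
      rw [h4, sq_inv (gen_sq edges extra hwn)]
    intro u hu
    refine ih (w :: K) ?_ hl u ?_
    · intro v hv
      rcases List.mem_cons.1 hv with rfl | hv
      · exact ht
      · exact hK v hv
    · simp only [List.map_cons, List.mem_append, List.mem_cons] at hu ⊢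
      tauto

theorem comm_of_all {t : CoxPresented α edges extra} (h : ∀ u : α, gen edges extra u = t)
    (a b : CoxPresented α edges extra) : a * b = b * a := by
  have hc : (⊤ : Subgroup (CoxPresented α edges extra)) ≤ Subgroup.zpowers t := by
    rw [← PresentedGroup.closure_range_of, Subgroup.closure_le]
    rintro _ ⟨u, rfl⟩
    have : gen edges extra u = t := h u
    show gen edges extra u ∈ Subgroup.zpowers t
    rw [this]
    exact Subgroup.mem_zpowers t
  obtain ⟨m, rfl⟩ := Subgroup.mem_zpowers_iff.1 (hc (Subgroup.mem_top a))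
  obtain ⟨n, rfl⟩ := Subgroup.mem_zpowers_iff.1 (hc (Subgroup.mem_top b))
  rw [← zpow_add, ← zpow_add, add_comm]

/-- four nodes forming a chain, a spreading argument from the first two reaching all generators -/
theorem hasMS_of_cox (a b c d : α) (l : List (α × α × α))
    (h1 : ∀ x ∈ [a, b, c, d], x ∈ coxNodes edges)
    (h2 : coxLabel edges a b = 3 ∧ coxLabel edges b c = 3 ∧ coxLabel edges c d = 3 ∧ coxLabel edges a c = 2 ∧
      coxLabel edges a d = 2 ∧ coxLabel edges b d = 2)
    (h3 : chk edges [a, b] l = true) (h4 : ∀ u : α, u ∈ [a, b] ++ l.map Prod.fst)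
    (hna : ¬ ∀ x y : CoxPresented α edges extra, x * y = y * x) :
    HasMS ↥(Subgroup.closure ({gen edges extra a, gen edges extra b, gen edges extra c, gen edges extra d} :
      Set (CoxPresented α edges extra))) := by
  have hne : gen edges extra a ≠ gen edges extra b := by
    intro h
    apply hna
    have := eq_of_chk edges extra (t := gen edges extra a) l [a, b] (by
      intro u hu
      simp only [List.mem_cons, List.not_mem_nil, or_false] at hu
      rcases hu with rfl | rfl
      · rfl
      · exact h.symm) h3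
    exact comm_of_all edges extra fun u => this u (h4 u)
  have ma := h1 a (by simp)
  have mb := h1 b (by simp)
  have mc := h1 c (by simp)
  have md := h1 d (by simp)
  obtain ⟨e1, e2, e3, e4, e5, e6⟩ := h2
  set C := Subgroup.closure ({gen edges extra a, gen edges extra b, gen edges extra c, gen edges extra d} :
      Set (CoxPresented α edges extra)) with hC
  have ka : gen edges extra a ∈ C := Subgroup.subset_closure (by simp)
  have kb : gen edges extra b ∈ C := Subgroup.subset_closure (by simp)
  have kc : gen edges extra c ∈ C := Subgroup.subset_closure (by simp)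
  have kd : gen edges extra d ∈ C := Subgroup.subset_closure (by simp)
  exact hasMS_of_chain (⟨_, ka⟩ : C) ⟨_, kb⟩ ⟨_, kc⟩ ⟨_, kd⟩
    (Subtype.ext (gen_sq edges extra ma)) (Subtype.ext (gen_sq edges extra mb))
    (Subtype.ext (gen_sq edges extra mc)) (Subtype.ext (gen_sq edges extra md))
    (Subtype.ext (gen_rel edges extra ma mb e1)) (Subtype.ext (gen_rel edges extra mb mc e2))
    (Subtype.ext (gen_rel edges extra mc md e3)) (Subtype.ext (gen_rel edges extra ma mc e4))
    (Subtype.ext (gen_rel edges extra ma md e5)) (Subtype.ext (gen_rel edges extra mb md e6))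
    fun h => hne (congrArg Subtype.val h)

end cox

theorem not_comm_of_iso {G X : Type*} [Group G] [Group X] (e : G ≃* X) (hna : ¬ IsMulCommutative G) :
    ¬ ∀ x y : X, x * y = y * x := fun h => hna ⟨⟨fun a b => e.injective (by rw [map_mul, map_mul]; exact h _ _)⟩⟩

theorem hasMS_of_fi22 {G : Type*} [Group G] (hna : ¬ IsMulCommutative G) (h : Spor.IsoFi22 G) : HasMS G := by
  obtain ⟨e⟩ := h
  refine HasMS.congr e.symm (HasMS.of_subgroup (hasMS_of_cox Fi22.edges Fi22.extra .a .b .c .d
    [(.c, .a, .b), (.d, .a, .c), (.e, .a, .d), (.f, .a, .e), (.g, .a, .f), (.h, .a, .d), (.i, .a, .h)]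
    (by decide) (by decide) (by decide) (by intro u; cases u <;> decide) (not_comm_of_iso e hna)))

theorem hasMS_of_fi23 {G : Type*} [Group G] (hna : ¬ IsMulCommutative G) (h : Spor.IsoFi23 G) : HasMS G := by
  obtain ⟨e⟩ := h
  refine HasMS.congr e.symm (HasMS.of_subgroup (hasMS_of_cox Fi23.edges Fi23.extra .a .b .c .d
    [(.c, .a, .b), (.d, .a, .c), (.e, .a, .d), (.f, .a, .e), (.g, .a, .f), (.j, .a, .g), (.h, .a, .d), (.i, .a, .h)]
    (by decide) (by decide) (by decide) (by intro u; cases u <;> decide) (not_comm_of_iso e hna)))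

theorem hasMS_of_b {G : Type*} [Group G] (hna : ¬ IsMulCommutative G) (h : Spor.IsoB G) : HasMS G := by
  obtain ⟨e⟩ := h
  refine HasMS.congr e.symm (HasMS.of_subgroup (hasMS_of_cox BabyMonster.edges BabyMonster.extra .t1 .t2 .t3 .t4
    [(.t3, .t1, .t2), (.t4, .t1, .t3), (.t5, .t1, .t4), (.t6, .t1, .t5), (.t7, .t1, .t6), (.t8, .t1, .t7),
      (.t9, .t1, .t5), (.t10, .t1, .t9), (.t11, .t1, .t10)]
    (by decide) (by decide) (by decide) (by intro u; cases u <;> decide) (not_comm_of_iso e hna)))

theorem hasMS_of_fi24 {G : Type*} [Group G] (hna : ¬ IsMulCommutative G) (h : Spor.IsoFi24' G) : HasMS G := by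
  obtain ⟨e⟩ := h
  have hn : ¬ ∀ x y : Spor.Fi24, x * y = y * x := fun hc => not_comm_of_iso e hna fun x y => Subtype.ext (hc _ _)
  refine HasMS.congr e.symm (HasMS.commutator (HasMS.of_subgroup (hasMS_of_cox Fi24.edges Fi24.extra .l .k .a .b
    [(.a, .l, .k), (.b, .l, .a), (.c, .l, .b), (.d, .l, .c), (.e, .l, .d), (.f, .l, .e), (.g, .l, .f), (.j, .l, .g),
      (.h, .l, .d), (.i, .l, .h)]
    (by decide) (by decide) (by decide) (by intro u; cases u <;> decide) hn)))

/-- a minimal simple subgroup of a subgroup lies in the commutator subgroup -/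
theorem HasMS.inf_commutator {G : Type*} [Group G] {H : Subgroup G} (h : HasMS ↥H) :
    HasMS ↥(H ⊓ _root_.commutator G) := by
  have h1 := h.commutator
  have hle : (_root_.commutator ↥H).map H.subtype ≤ H ⊓ _root_.commutator G := by
    refine le_inf (Subgroup.map_subtype_le _) ?_
    rw [_root_.commutator_def, Subgroup.map_commutator, _root_.commutator_def]
    exact Subgroup.commutator_mono le_top le_top
  exact (h1.congr ((_root_.commutator ↥H).equivMapOfInjective H.subtype H.subtype_injective)).of_le hle

theorem hasMS_of_m {G : Type*} [Group G] (hna : ¬ IsMulCommutative G) (h : Spor.IsoM G) : HasMS G := by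
  obtain ⟨e⟩ := h
  have hn : ¬ ∀ x y : Spor.Bimonster, x * y = y * x := fun hc => not_comm_of_iso e hna fun x y => Subtype.ext (hc _ _)
  have h1 := hasMS_of_cox Bimonster.edges Bimonster.extra .c1 .d1 .e1 .f1
    [(.e1, .c1, .d1), (.f1, .c1, .e1), (.b1, .d1, .c1), (.a, .c1, .b1), (.b2, .c1, .a), (.c2, .c1, .b2), (.d2, .c1, .c2),
      (.e2, .c1, .d2), (.f2, .c1, .e2), (.b3, .c1, .a), (.c3, .c1, .b3), (.d3, .c1, .c3), (.e3, .c1, .d3),
      (.f3, .c1, .e3)]
    (by decide) (by decide) (by decide) (by intro u; cases u <;> decide) hn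
  refine HasMS.congr e.symm (HasMS.inf_commutator (h1.of_le ?_))
  rw [Subgroup.closure_le]
  have key : ∀ x : Bimonster.Gen, x ∈ coxNodes Bimonster.edges → coxLabel Bimonster.edges x .a = 2 →
      gen Bimonster.edges Bimonster.extra x ∈ Subgroup.centralizer
        {(PresentedGroup.of Bimonster.Gen.a : Spor.Bimonster)} := by
    intro x hx hx2
    rw [Subgroup.mem_centralizer_singleton_iff]
    exact comm_of_sq (gen_sq _ _ hx) (gen_sq _ _ (by decide)) (gen_rel _ _ hx (by decide) hx2)
  rintro x (rfl | rfl | rfl | rfl)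
  · exact key _ (by decide) (by decide)
  · exact key _ (by decide) (by decide)
  · exact key _ (by decide) (by decide)
  · exact key _ (by decide) (by decide)

end Cfsg.Agent.H46.MS
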