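import Cfsg.Agent.H46.MSPres

/-!
# Minimal simple subgroups of Suz, He, HN (helper46)
-/

set_option autoImplicit false

namespace Cfsg.Agent.H46.MS

open Subgroup Cfsg Cfsg.Spor

theorem eq_one_of_two_three {G : Type*} [Group G] {x : G} (h2 : x * x = 1) (h3 : x ^ 3 = 1) : x = 1 := by
  calc x = x * x * x := by rw [h2, one_mul]
    _ = 1 := by rw [← h3, pow_succ, pow_two]

theorem eq_of_two_odd {G : Type*} [Group G] {x : G} (h2 : x ^ 2 = 1) {n : ℕ} (hn : Odd n) (h : x ^ n = 1) : x = 1 := by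
  obtain ⟨k, rfl⟩ := hn
  rw [pow_succ, pow_mul, h2, one_pow, one_mul] at h
  exact h

theorem eq_of_mul_one {G : Type*} [Group G] {x y : G} (hy : y * y = 1) (h : x * y = 1) : x = y := by
  rw [eq_inv_of_mul_eq_one_left h, sq_inv hy]

section suz

open Suz.Gen

local notation "g" => gen Suz.edges Suz.extra

theorem suz_ne (hna : ¬ ∀ x y : Spor.Suz, x * y = y * x) : g .c ≠ g .b := by
  intro h
  apply hna
  have hsq : ∀ x : Suz.Gen, g x * g x = 1 := fun x => gen_sq _ _ (by cases x <;> decide)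
  have r : ∀ x y : Suz.Gen, (g x * g y) ^ coxLabel Suz.edges x y = 1 := fun x y =>
    gen_rel _ _ (by cases x <;> decide) (by cases y <;> decide) rfl
  have hab : (g .a * g .b) ^ 5 = 1 := r .a .b
  have hac : (g .a * g .c) ^ 2 = 1 := r .a .c
  rw [h] at hac
  have e1 : g .a = g .b := eq_of_mul_one (hsq _) (eq_of_two_odd hac (by decide) hab)
  have had : (g .a * g .d) ^ 2 = 1 := r .a .d
  have x1 : g .a * ((g .c * g .d) ^ 4)⁻¹ = 1 := extra_rel Suz.edges Suz.extra (List.mem_cons_self ..)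
  have hb : g .b = 1 := by
    rw [h, ← e1, show (g .a * g .d) ^ 4 = ((g .a * g .d) ^ 2) ^ 2 from by rw [← pow_mul], had, one_pow, inv_one,
      mul_one] at x1
    rw [← e1, x1]
  have hf : g .f = 1 := eq_one_of_two_three (hsq _) (by
    have h1 : (g .b * g .f) ^ 3 = 1 := r .b .f
    rwa [hb, one_mul] at h1)
  have hg : g .g = 1 := eq_one_of_two_three (hsq _) (by
    have h1 : (g .g * g .b) ^ 3 = 1 := r .g .b
    rwa [hb, mul_one] at h1)
  have he : g .e = 1 := eq_one_of_two_three (hsq _) (by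
    have h1 : ((g .b * g .c * g .d * g .c * g .d) ^ 5 * g .e) ^ 3 = 1 :=
      extra_rel Suz.edges Suz.extra (w := ((Suz.b * Suz.c * Suz.d * Suz.c * Suz.d) ^ 5 * Suz.e) ^ 3) (by
        unfold Suz.extra; simp)
    rwa [h, hb, one_mul, one_mul, mul_one, hsq, one_pow, one_mul] at h1)
  have hd : g .d = 1 := eq_one_of_two_three (hsq _) (by
    have h1 : (g .d * g .e) ^ 3 = 1 := r .d .e
    rwa [he, mul_one] at h1)
  refine comm_of_all Suz.edges Suz.extra (t := 1) fun u => ?_
  cases u
  · exact e1.trans hb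
  · exact hb
  · exact h.trans hb
  · exact hd
  · exact he
  · exact hf
  · exact hg

theorem hasMS_of_suz {G : Type*} [Group G] (hna : ¬ IsMulCommutative G) (h : Spor.IsoSuz G) : HasMS G := by
  obtain ⟨e⟩ := h
  have r : ∀ x y : Suz.Gen, (g x * g y) ^ coxLabel Suz.edges x y = 1 := fun x y =>
    gen_rel _ _ (by cases x <;> decide) (by cases y <;> decide) rfl
  have hsq : ∀ x : Suz.Gen, g x * g x = 1 := fun x => gen_sq _ _ (by cases x <;> decide)
  exact HasMS.congr e.symm (hasMS_of_H3 (g .a) (g .b) (g .c) (hsq _) (hsq _) (r .a .c) (r .a .b) (r .c .b)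
    (suz_ne (not_comm_of_iso e hna)))

end suz

section he

local notation "g" => gen He.edges He.extra

theorem he_ne (hna : ¬ ∀ x y : Spor.He, x * y = y * x) : g .e ≠ g .d := by
  intro h
  apply hna
  have hsq : ∀ x : He.Gen, g x * g x = 1 := fun x => gen_sq _ _ (by cases x <;> decide)
  have r : ∀ x y : He.Gen, (g x * g y) ^ coxLabel He.edges x y = 1 := fun x y =>
    gen_rel _ _ (by cases x <;> decide) (by cases y <;> decide) rfl
  have hf : g .f = g .d := by
    have h1 : (g .f * g .e) ^ 2 = 1 := r .f .e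
    have h2 : (g .f * g .d) ^ 3 = 1 := r .f .d
    rw [h] at h1
    exact eq_of_mul_one (hsq _) (eq_of_two_odd h1 (by decide) h2)
  have hg : g .g = g .d := by
    have h1 : (g .g * g .e) ^ 2 = 1 := r .g .e
    have h2 : (g .g * g .d) ^ 3 = 1 := r .g .d
    rw [h] at h1
    exact eq_of_mul_one (hsq _) (eq_of_two_odd h1 (by decide) h2)
  have he : g .e = 1 := by
    have h1 : g .e * ((g .f * g .g) ^ 2)⁻¹ = 1 := extra_rel He.edges He.extra (List.mem_cons_self ..)
    rwa [hf, hg, hsq, one_pow, inv_one, mul_one] at h1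
  have hd : g .d = 1 := h.symm.trans he
  have ha : g .a = g .c := by
    have h1 : g .a * ((g .c * g .d) ^ 5)⁻¹ = 1 := extra_rel He.edges He.extra
      (w := He.a * ((He.c * He.d) ^ 5)⁻¹) (by unfold He.extra; simp)
    have h2 : (g .c) ^ 5 = g .c := by
      calc (g .c) ^ 5 = g .c * g .c * (g .c * g .c) * g .c := by
            simp only [pow_succ, pow_zero, one_mul, mul_assoc]
        _ = g .c := by rw [hsq, one_mul, one_mul]
    rw [hd, mul_one, h2] at h1
    have := eq_inv_of_mul_eq_one_left h1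
    rwa [inv_inv] at this
  have hb : g .c = g .b := by
    have h1 : (g .a * g .b) ^ 4 = 1 := r .a .b
    have h2 : (g .c * g .b) ^ 3 = 1 := r .c .b
    rw [ha] at h1
    refine eq_of_mul_one (hsq _) ?_
    calc g .c * g .b = (g .c * g .b) ^ 3 * (g .c * g .b) := by rw [h2, one_mul]
      _ = 1 := by rw [← pow_succ, h1]
  have hc : g .c = 1 := by
    have h1 : g .e * ((g .a * g .b * g .c) ^ 3)⁻¹ = 1 := extra_rel He.edges He.extra
      (w := He.e * ((He.a * He.b * He.c) ^ 3)⁻¹) (by unfold He.extra; simp)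
    rw [ha, ← hb, hsq, one_mul, he, one_mul] at h1
    have h3 := inv_eq_one.1 h1
    exact eq_one_of_two_three (hsq _) h3
  refine comm_of_all He.edges He.extra (t := 1) fun u => ?_
  cases u
  · exact ha.trans hc
  · exact hb.symm.trans hc
  · exact hc
  · exact hd
  · exact he
  · exact hf.trans hd
  · exact hg.trans hd

theorem hasMS_of_he {G : Type*} [Group G] (hna : ¬ IsMulCommutative G) (h : Spor.IsoHe G) : HasMS G := by
  obtain ⟨e⟩ := h
  have r : ∀ x y : He.Gen, (g x * g y) ^ coxLabel He.edges x y = 1 := fun x y =>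
    gen_rel _ _ (by cases x <;> decide) (by cases y <;> decide) rfl
  have hsq : ∀ x : He.Gen, g x * g x = 1 := fun x => gen_sq _ _ (by cases x <;> decide)
  have cac : g .a * g .c = g .c * g .a := comm_of_sq (hsq _) (hsq _) (r .a .c)
  have cad : g .a * g .d = g .d * g .a := comm_of_sq (hsq _) (hsq _) (r .a .d)
  have cae : g .a * g .e = g .e * g .a := comm_of_sq (hsq _) (hsq _) (r .a .e)
  have cce : g .c * g .e = g .e * g .c := comm_of_sq (hsq _) (hsq _) (r .c .e)
  have h1 : g .a = (g .c * g .d) ^ 5 := by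
    have h1 : g .a * ((g .c * g .d) ^ 5)⁻¹ = 1 := extra_rel He.edges He.extra
      (w := He.a * ((He.c * He.d) ^ 5)⁻¹) (by unfold He.extra; simp)
    have := eq_inv_of_mul_eq_one_left h1
    rwa [inv_inv] at this
  have hcom : Commute (g .a) (g .c * g .d) := (show Commute _ _ from cac).mul_right cad
  refine HasMS.congr e.symm (hasMS_of_H3 (g .a * g .c) (g .d) (g .e) (hsq _) (hsq _) ?_ ?_ (r .e .d)
    (he_ne (not_comm_of_iso e hna)))
  · have c1 : Commute (g .a * g .c) (g .e) := (show Commute _ _ from cae).mul_left cce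
    rw [c1.mul_pow, pow_two (g .e), hsq, mul_one, pow_two]
    calc g .a * g .c * (g .a * g .c) = g .a * (g .c * g .a) * g .c := by group
      _ = g .a * (g .a * g .c) * g .c := by rw [cac]
      _ = g .a * g .a * (g .c * g .c) := by group
      _ = 1 := by rw [hsq, hsq, one_mul]
  · rw [mul_assoc, hcom.mul_pow, ← h1]
    calc g .a ^ 5 * g .a = g .a * g .a * (g .a * g .a) * (g .a * g .a) := by
          simp only [pow_succ, pow_zero, one_mul, mul_assoc]
      _ = 1 := by rw [hsq, one_mul, one_mul]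

end he

section hn

local notation "g" => gen HN.edges HN.extra

theorem hn_rel (w : FreeGroup HN.Gen) (hw : w ∈ HN.extra) : (QuotientGroup.mk w : Spor.HN) = 1 :=
  extra_rel HN.edges HN.extra hw

theorem hn_z : g .z * g .z = 1 := by
  have h1 : (g .z) ^ 2 = 1 := hn_rel (HN.z ^ 2) (by unfold HN.extra; simp)
  rwa [pow_two] at h1

theorem hn_t : (g .t) ^ 5 = 1 := hn_rel (HN.t ^ 5) (by unfold HN.extra; simp)

theorem hn_zt : (g .z * g .t) ^ 3 = 1 := hn_rel ((HN.z * HN.t) ^ 3) (by unfold HN.extra; simp)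

theorem hn_ne (hna : ¬ ∀ x y : Spor.HN, x * y = y * x) : g .z * g .t ≠ 1 := by
  intro h
  apply hna
  have ht : g .t = g .z := by
    have := eq_inv_of_mul_eq_one_left h
    rw [← inv_inv (g .t), ← this, sq_inv hn_z]
  have hz : g .z = 1 := by
    have h1 := hn_t
    rw [ht] at h1
    exact eq_of_two_odd (by rw [pow_two, hn_z]) (by decide) h1
  have ht1 : g .t = 1 := ht.trans hz
  have hx2 : g .x * g .x = 1 := by
    have h1 : (g .z * g .x) ^ 2 = 1 := hn_rel ((HN.z * HN.x) ^ 2) (by unfold HN.extra; simp)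
    rwa [hz, one_mul, pow_two] at h1
  have hx : g .x = 1 := by
    have h1 : g .z * (((((g .y ^ 3) * g .x * g .y * g .x * g .y)⁻¹ * g .z *
        ((g .y ^ 3) * g .x * g .y * g .x * g .y)) * g .x) ^ 3) = 1 :=
      hn_rel (HN.z * (((((HN.y ^ 3) * HN.x * HN.y * HN.x * HN.y)⁻¹ * HN.z *
        ((HN.y ^ 3) * HN.x * HN.y * HN.x * HN.y)) * HN.x) ^ 3)) (by unfold HN.extra; simp)
    rw [hz, mul_one, inv_mul_cancel, one_mul, one_mul] at h1
    exact eq_one_of_two_three hx2 h1
  have hy : g .y = 1 := by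
    have h6 : (g .y) ^ 6 = 1 := hn_rel (HN.y ^ 6) (by unfold HN.extra; simp)
    have h8 : (g .x * g .y) ^ 8 = 1 := hn_rel ((HN.x * HN.y) ^ 8) (by unfold HN.extra; simp)
    have h15 : ((g .x)⁻¹ * (g .y ^ 2) * g .x * (g .y ^ 3)) ^ 3 = 1 :=
      hn_rel (((HN.x⁻¹) * (HN.y ^ 2) * HN.x * (HN.y ^ 3)) ^ 3) (by unfold HN.extra; simp)
    rw [hx, one_mul] at h8
    rw [hx, inv_one, one_mul, mul_one, ← pow_add, ← pow_mul] at h15
    have h2 : (g .y) ^ 2 = 1 := by
      have : (g .y) ^ 8 = (g .y) ^ 6 * (g .y) ^ 2 := by rw [← pow_add]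
      rwa [this, h6, one_mul] at h8
    exact eq_of_two_odd h2 (by decide) h15
  refine comm_of_all HN.edges HN.extra (t := 1) fun u => ?_
  cases u
  · exact hx
  · exact hy
  · exact hz
  · exact ht1

theorem hasMS_of_hn {G : Type*} [Group G] (hna : ¬ IsMulCommutative G) (h : Spor.IsoHN G) : HasMS G := by
  obtain ⟨e⟩ := h
  refine HasMS.congr e.symm (hasMS_of_235 (g .z) (g .z * g .t) hn_z hn_zt ?_ (hn_ne (not_comm_of_iso e hna)))
  rw [← mul_assoc, hn_z, one_mul, hn_t]

end hn

end Cfsg.Agent.H46.MS
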