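import Cfsg.Agent.H46.MinSub
import Cfsg.Agent.H102.SzSol
import Cfsg.Agent.OddCyclic.ClaimC.SzIso
import Cfsg.Agent.Classification.MinSimpleSuzuki

/-!
# Minimal simple subgroups of the Suzuki groups (helper46)

A minimal non-solvable subgroup of a group in which subgroups with a non-trivial abelian normal
subgroup are solvable is minimal simple.
-/

set_option autoImplicit false

namespace Cfsg.Agent.H46.MS

open Subgroup Cfsg Cfsg.Agent.H102.RankOneSol MulAction

/-- A non-trivial solvable group has a non-trivial abelian characteristic subgroup. -/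
theorem exists_char_abelian {K : Type*} [Group K] (hs : Group.IsSolvable K) (hK : Nontrivial K) :
    ∃ A : Subgroup K, A.Characteristic ∧ (∃ x ∈ A, x ≠ 1) ∧ ∀ x ∈ A, ∀ y ∈ A, x * y = y * x := by
  classical
  obtain ⟨h⟩ := hs
  have h0 : Nat.find h ≠ 0 := by
    intro h0
    have h1 := Nat.find_spec h
    rw [h0, derivedSeries_zero] at h1
    exact top_ne_bot h1
  obtain ⟨k, hk⟩ := Nat.exists_eq_succ_of_ne_zero h0
  refine ⟨derivedSeries K k, inferInstance, ?_, ?_⟩
  · by_contra hcon
    push Not at hcon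
    have h1 : derivedSeries K k = ⊥ := (Subgroup.eq_bot_iff_forall _).2 hcon
    exact Nat.find_min h (by omega) h1
  · intro x hx y hy
    have h1 : ⁅derivedSeries K k, derivedSeries K k⁆ = ⊥ := by
      rw [← derivedSeries_succ]
      have := Nat.find_spec h
      rwa [hk] at this
    rw [Subgroup.commutator_eq_bot_iff_le_centralizer] at h1
    exact (Subgroup.mem_centralizer_iff.1 (h1 hx) y hy).symm

theorem exists_minimal_nonsolvable {G : Type*} [Group G] [Finite G] (hG : ¬ Group.IsSolvable G) :
    ∃ K : Subgroup G, ¬ Group.IsSolvable K ∧ ∀ H : Subgroup G, H < K → Group.IsSolvable H := by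
  have hne : ∃ K : Subgroup G, ¬ Group.IsSolvable K := ⟨⊤, fun h => hG
    (Group.isSolvable_of_isSolvable_injective (f := (Subgroup.topEquiv (G := G)).symm.toMonoidHom)
      (Subgroup.topEquiv (G := G)).symm.injective)⟩
  obtain ⟨K, hK, hmin⟩ := (Set.toFinite {K : Subgroup G | ¬ Group.IsSolvable K}).exists_minimal hne
  refine ⟨K, hK, fun H hH => ?_⟩
  by_contra hs
  exact absurd (hmin hs hH.le) (not_le_of_gt hH)

theorem hasMS_of_local {G : Type*} [Group G] [Finite G] (hG : ¬ Group.IsSolvable G)
    (hloc : ∀ (K : Subgroup G) (z : G), z ≠ 1 → z ∈ K →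
      (∀ x ∈ K, x * z * x⁻¹ * z = z * (x * z * x⁻¹)) → Group.IsSolvable K) : HasMS G := by
  obtain ⟨K, hK, hmin⟩ := exists_minimal_nonsolvable hG
  have hprop : ∀ H : Subgroup K, H ≠ ⊤ → Group.IsSolvable H := by
    intro H hH
    have h1 : H.map K.subtype < K := by
      refine lt_of_le_of_ne (Subgroup.map_subtype_le H) fun h => hH ?_
      rw [eq_top_iff]
      intro x _
      have hx : (x : G) ∈ H.map K.subtype := by rw [h]; exact x.2
      obtain ⟨y, hy, hxy⟩ := hx
      have : y = x := Subtype.ext hxy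
      rwa [this] at hy
    have h2 := hmin _ h1
    exact Group.isSolvable_of_isSolvable_injective
      (f := (H.equivMapOfInjective K.subtype K.subtype_injective).toMonoidHom)
      (H.equivMapOfInjective K.subtype K.subtype_injective).injective
  refine ⟨K, ?_, ?_, hprop⟩
  · have hnt : Nontrivial K := by
      by_contra hnt
      rw [not_nontrivial_iff_subsingleton] at hnt
      exact hK (Group.isSolvable_of_comm fun a b => Subsingleton.elim _ _)
    refine { eq_bot_or_eq_top_of_normal := fun M hM => ?_ }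
    by_contra hcon
    push Not at hcon
    obtain ⟨hb, ht⟩ := hcon
    obtain ⟨A, hA, ⟨⟨z, hzM⟩, hzA, hz1⟩, hcomm⟩ := exists_char_abelian (hprop M ht)
      ((Subgroup.nontrivial_iff_ne_bot M).2 hb)
    have hAn : (A.map M.subtype).Normal := ConjAct.normal_of_characteristic_of_normal
    apply hK
    apply hloc K z
    · intro h
      exact hz1 (Subtype.ext (Subtype.ext h))
    · exact z.2
    · intro x hx
      have h1 : z ∈ A.map M.subtype := ⟨⟨z, hzM⟩, hzA, rfl⟩
      obtain ⟨w, hw, hwz⟩ := hAn.conj_mem z h1 ⟨x, hx⟩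
      have h2 := hcomm w hw ⟨z, hzM⟩ hzA
      have h3 := congrArg (fun t : M => ((t : K) : G)) h2
      have h4 : ((w : K) : G) = x * z * x⁻¹ := congrArg (fun t : K => (t : G)) hwz
      simp only [Subgroup.coe_mul] at h3
      rw [h4] at h3
      exact h3
  · intro hc
    exact hK (Group.isSolvable_of_comm fun a b => hc.is_comm.comm a b)

theorem isSolvable_of_hyp {G Ω : Type*} [Group G] [Finite G] [MulAction G Ω] [Finite Ω] {n d : ℕ}
    (H : Hyp G Ω n d)
    (hN : ∀ T : Subgroup G, IsT T → ∃ e : ℕ, Nat.card (Subgroup.normalizer (T : Set G)) = 2 ^ e * Nat.card T)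
    (K : Subgroup G) (z : G) (hz1 : z ≠ 1)
    (hcomm : ∀ x ∈ K, x * z * x⁻¹ * z = z * (x * z * x⁻¹)) : Group.IsSolvable K := by
  have hcent : ∀ x ∈ K, x * z * x⁻¹ ∈ Subgroup.centralizer ({z} : Set G) := by
    intro x hx
    rw [Subgroup.mem_centralizer_singleton_iff]
    exact hcomm x hx
  by_cases hf : ∃ a : Ω, Fix1 z a
  · obtain ⟨a, ha⟩ := hf
    have hle : K ≤ stabilizer G a := by
      intro x hx
      have h1 := Subgroup.mem_centralizer_singleton_iff.1 (hcent x hx)
      have h2 : (x * z * x⁻¹) • a = a := by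
        apply (ha _).1
        rw [← mul_smul, ← h1, mul_smul, (ha a).2 rfl]
      have h3 : z • (x⁻¹ • a) = x⁻¹ • a := by
        rw [mul_smul, mul_smul] at h2
        rw [eq_inv_smul_iff]
        exact h2
      have h4 := (ha _).1 h3
      rw [inv_smul_eq_iff] at h4
      exact h4.symm
    have := H.solv_one a
    exact Group.isSolvable_of_isSolvable_injective (Subgroup.inclusion_injective hle)
  · push Not at hf
    have hT := H.isT_centralizer hz1 hf
    have hle : K ≤ Subgroup.normalizer ((Subgroup.centralizer ({z} : Set G) : Subgroup G) : Set G) := fun x hx =>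
      hT.mem_normalizer (Subgroup.mem_centralizer_singleton_iff.2 rfl) hz1 (hcent x hx)
    obtain ⟨e, he⟩ := hN _ hT
    have := hT.isSolvable_normalizer he
    exact Group.isSolvable_of_isSolvable_injective (Subgroup.inclusion_injective hle)

theorem hasMS_of_suzuki {G : Type*} [Group G] (h : Cfsg.Lie.IsoSuzuki G) : HasMS G := by
  obtain ⟨F, _, _, m, hm, hF, ⟨e⟩⟩ := h
  obtain ⟨e'⟩ := Cfsg.Agent.OddCyclic.ClaimC.SzIso.iso hm hF
  have hns : ¬ Group.IsSolvable ↥(Cfsg.Sz F m) := fun hs =>
    Cfsg.Agent.Classification.MinSimpleSuzuki.not_isSolvable_Sz hm hF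
      (Group.isSolvable_of_isSolvable_injective (f := e'.symm.toMonoidHom) e'.symm.injective)
  have := Cfsg.Agent.H98.SzBasic.finite_ovoid F m
  have H := H102.SzSol.hyp hm hF
  have hms : HasMS ↥(Cfsg.Sz F m) := hasMS_of_local hns fun K z hz _ hc =>
    isSolvable_of_hyp H (H.card_normalizer (H102.SzSol.one_lt_d hm hF) (H102.SzSol.norm_free hm hF)) K z hz hc
  exact hms.congr (e.trans e'.symm).symm

end Cfsg.Agent.H46.MS
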