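import Cfsg.Agent.H46.MSPresB
import Cfsg.Agent.H46.MSLin
import Cfsg.Agent.RuB.K8
import Cfsg.Agent.Lib.SL2Hom
import Cfsg.Agent.Th.Base

/-!
# Minimal simple subgroups of `Th` (helper46): `⟨d, e, s⟩ = L₂(8)`
-/

set_option autoImplicit false

namespace Cfsg.Agent.H46.MS

open Subgroup Cfsg Cfsg.Agent.RuB

/-- relations of `L₂(8)` -/
structure L8 {G : Type*} [Group G] (d e s : G) : Prop where
  d2 : d * d = 1
  e2 : e * e = 1
  de : (d * e) ^ 3 = 1
  s7 : s ^ 7 = 1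
  ds : d * s * d = s⁻¹
  es : e * (s⁻¹ * e * s) = (s ^ 3)⁻¹ * e * s ^ 3

/-- the logarithm to the base `α` -/
def lg (a : K8) : ℕ := ([0, 0, 1, 3, 2, 6, 4, 5] : List ℕ).getD a.val.1 0

namespace L8

variable {G : Type*} [Group G] {d e s : G} (H : L8 d e s)

/-- `e ^ (s ^ i)` -/
def ee (e s : G) (i : ℕ) : G := (s ^ i)⁻¹ * e * s ^ i

theorem ee_add (i j : ℕ) : ee (ee e s i) s j = ee e s (i + j) := by
  unfold ee
  rw [pow_add]; group

include H

theorem ee_mod (i : ℕ) : ee e s (i % 7) = ee e s i := by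
  have h : s ^ (i % 7) = s ^ i := by
    conv_rhs => rw [← Nat.mod_add_div i 7, pow_add, pow_mul, H.s7, one_pow, mul_one]
  unfold ee
  rw [h]

theorem ee_sq (i : ℕ) : ee e s i * ee e s i = 1 := by
  unfold ee
  calc (s ^ i)⁻¹ * e * s ^ i * ((s ^ i)⁻¹ * e * s ^ i) = (s ^ i)⁻¹ * (e * e) * s ^ i := by group
    _ = 1 := by rw [H.e2]; group

theorem ee_inv (i : ℕ) : (ee e s i)⁻¹ = ee e s i := sq_inv (H.ee_sq i)

theorem l1 (i : ℕ) : ee e s i * ee e s (i + 1) = ee e s (i + 3) := by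
  have e1 : ee e s i * ee e s (i + 1) = (s ^ i)⁻¹ * (e * (s⁻¹ * e * s)) * s ^ i := by
    unfold ee
    rw [show i + 1 = 1 + i from add_comm _ _, pow_add, pow_one]
    group
  rw [e1, H.es]
  unfold ee
  rw [show i + 3 = 3 + i from add_comm _ _, pow_add]
  group

theorem l2 (i : ℕ) : ee e s (i + 1) * ee e s i = ee e s (i + 3) := by
  have := congrArg (fun x => x⁻¹) (H.l1 i)
  simpa only [mul_inv_rev, H.ee_inv] using this

theorem l3 (i : ℕ) : ee e s i * ee e s (i + 3) = ee e s (i + 1) := by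
  rw [← H.l1 i, ← mul_assoc, H.ee_sq, one_mul]

theorem l4 (i : ℕ) : ee e s (i + 3) * ee e s i = ee e s (i + 1) := by
  rw [← H.l2 i, mul_assoc, H.ee_sq, mul_one]

theorem l5 (i : ℕ) : ee e s (i + 1) * ee e s (i + 3) = ee e s i := by
  rw [← H.l2 i, ← mul_assoc, H.ee_sq, one_mul]

theorem l6 (i : ℕ) : ee e s (i + 3) * ee e s (i + 1) = ee e s i := by
  rw [← H.l1 i, mul_assoc, H.ee_sq, mul_one]

omit H in
/-- root elements -/
def xx (e s : G) (a : K8) : G := if a = 0 then 1 else ee e s (lg a)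

omit H in
/-- torus elements -/
def hh (s : G) (a : K8) : G := s ^ (5 * lg a)

omit H in
theorem lines : ∀ a b : K8, a ≠ 0 → b ≠ 0 → a ≠ b → ∃ m : Fin 7,
    (lg a = m.1 ∧ lg b = (m.1 + 1) % 7 ∧ lg (a + b) = (m.1 + 3) % 7) ∨
    (lg b = m.1 ∧ lg a = (m.1 + 1) % 7 ∧ lg (a + b) = (m.1 + 3) % 7) ∨
    (lg a = m.1 ∧ lg b = (m.1 + 3) % 7 ∧ lg (a + b) = (m.1 + 1) % 7) ∨
    (lg b = m.1 ∧ lg a = (m.1 + 3) % 7 ∧ lg (a + b) = (m.1 + 1) % 7) ∨
    (lg a = (m.1 + 1) % 7 ∧ lg b = (m.1 + 3) % 7 ∧ lg (a + b) = m.1) ∨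
    (lg b = (m.1 + 1) % 7 ∧ lg a = (m.1 + 3) % 7 ∧ lg (a + b) = m.1) := by decide +kernel

theorem xx_add (a b : K8) : xx e s (a + b) = xx e s a * xx e s b := by
  by_cases ha : a = 0
  · subst ha; rw [zero_add]; simp [xx]
  by_cases hb : b = 0
  · subst hb; rw [add_zero]; simp [xx]
  by_cases hab : a = b
  · subst hab
    rw [K8.add_self]
    simp only [xx, if_neg ha, if_true]
    rw [H.ee_sq]
  have hs : a + b ≠ 0 := by
    intro h
    apply hab
    have : ∀ a b : K8, a + b = 0 → a = b := by decide +kernel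
    exact this a b h
  simp only [xx, if_neg ha, if_neg hb, if_neg hs]
  obtain ⟨m, h⟩ := lines a b ha hb hab
  rcases h with ⟨h1, h2, h3⟩ | ⟨h1, h2, h3⟩ | ⟨h1, h2, h3⟩ | ⟨h1, h2, h3⟩ | ⟨h1, h2, h3⟩ | ⟨h1, h2, h3⟩ <;>
    rw [h1, h2, h3] <;> simp only [H.ee_mod]
  · exact (H.l1 _).symm
  · exact (H.l2 _).symm
  · exact (H.l3 _).symm
  · exact (H.l4 _).symm
  · exact (H.l5 _).symm
  · exact (H.l6 _).symm

theorem pow_mod (n : ℕ) : s ^ (n % 7) = s ^ n := by
  conv_rhs => rw [← Nat.mod_add_div n 7, pow_add, pow_mul, H.s7, one_pow, mul_one]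

theorem pow_eq {m n : ℕ} (h : m % 7 = n % 7) : s ^ m = s ^ n := by
  rw [← H.pow_mod m, ← H.pow_mod n, h]

theorem d_pow (n : ℕ) : d * s ^ n * d = (s ^ n)⁻¹ := by
  have hd : d⁻¹ = d := sq_inv H.d2
  have : d * s ^ n * d⁻¹ = (d * s * d⁻¹) ^ n := (conj_pow).symm
  rw [hd, H.ds, inv_pow] at this
  exact this

theorem rel : Lib.SL2Hom.Rel (K := K8) (xx e s) (hh s) d := by
  have hdi : d⁻¹ = d := sq_inv H.d2
  refine ⟨fun a b => H.xx_add a b, ?_, ?_, ?_, ?_, ?_⟩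
  · intro a b ha hb
    unfold hh
    rw [← pow_add]
    apply H.pow_eq
    have : ∀ a b : K8, a ≠ 0 → b ≠ 0 → 5 * lg (a * b) % 7 = (5 * lg a + 5 * lg b) % 7 := by decide +kernel
    exact this a b ha hb
  · intro a t ha
    by_cases ht : t = 0
    · subst ht; rw [mul_zero]; simp [xx]
    have hat : a ^ 2 * t ≠ 0 := mul_ne_zero (pow_ne_zero _ ha) ht
    simp only [xx, if_neg ht, if_neg hat, hh, ee]
    have e1 : ∀ a t : K8, a ≠ 0 → t ≠ 0 → lg (a ^ 2 * t) % 7 = (2 * lg a + lg t) % 7 ∧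
        (lg (a ^ 2 * t) + 5 * lg a) % 7 = lg t % 7 := by decide +kernel
    obtain ⟨h1, h2⟩ := e1 a t ha ht
    have h3 : s ^ lg (a ^ 2 * t) = s ^ (2 * lg a + lg t) := H.pow_eq h1
    have h4 : s ^ (lg (a ^ 2 * t) + 5 * lg a) = s ^ lg t := H.pow_eq h2
    have h5 : s ^ (5 * lg a) * (s ^ lg t)⁻¹ = (s ^ lg (a ^ 2 * t))⁻¹ := by
      rw [← h4, pow_add, mul_inv_rev, mul_inv_cancel_left]
    calc s ^ (5 * lg a) * ((s ^ lg t)⁻¹ * e * s ^ lg t) = (s ^ (5 * lg a) * (s ^ lg t)⁻¹) * e * s ^ lg t := by group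
      _ = (s ^ lg (a ^ 2 * t))⁻¹ * e * s ^ lg t := by rw [h5]
      _ = (s ^ lg (a ^ 2 * t))⁻¹ * e * s ^ (lg (a ^ 2 * t) + 5 * lg a) := by rw [h4]
      _ = _ := by rw [pow_add]; group
  · intro a ha
    have h1 := H.d_pow (5 * lg a)
    have h2 : (s ^ (5 * lg a))⁻¹ = s ^ (5 * lg a⁻¹) := by
      rw [inv_eq_iff_mul_eq_one, ← pow_add]
      have : ∀ a : K8, a ≠ 0 → (5 * lg a + 5 * lg a⁻¹) % 7 = 0 := by decide +kernel
      rw [← H.pow_mod, this a ha, pow_zero]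
    unfold hh
    rw [← h2, ← h1]
    calc d * s ^ (5 * lg a) = d * s ^ (5 * lg a) * (d * d) := by rw [H.d2, mul_one]
      _ = _ := by group
  · rw [H.d2]
    have : lg (-1 : K8) = 0 := by decide +kernel
    unfold hh
    rw [this, mul_zero, pow_zero]
  · intro t ht
    have ht' : (-t⁻¹ : K8) ≠ 0 := neg_ne_zero.2 (inv_ne_zero ht)
    have hb : e * d * e = d * e * d := by
      have := braid_of_cube H.d2 H.e2 H.de
      exact this.symm
    simp only [xx, if_neg ht, if_neg ht', hh, ee]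
    have e1 : ∀ t : K8, t ≠ 0 → (lg (-t⁻¹) + lg t) % 7 = 0 ∧ (5 * lg (-t) + 2 * lg t) % 7 = 0 := by decide +kernel
    obtain ⟨h1, h2⟩ := e1 t ht
    have h3 : s ^ lg (-t⁻¹) = (s ^ lg t)⁻¹ := by
      rw [eq_inv_iff_mul_eq_one, ← pow_add, ← H.pow_mod, h1, pow_zero]
    have h4 : s ^ (5 * lg (-t)) = (s ^ lg t)⁻¹ * (s ^ lg t)⁻¹ := by
      rw [← mul_inv_rev, ← pow_add, ← two_mul, eq_inv_iff_mul_eq_one, ← pow_add, ← H.pow_mod, h2, pow_zero]
    rw [h3, h4, inv_inv]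
    have h5 := H.d_pow (lg t)
    generalize s ^ lg t = r at h5 ⊢
    have h6 : d * r⁻¹ * d = r := by
      have h7 : d * r⁻¹ * d⁻¹ = (d * r * d⁻¹)⁻¹ := by group
      rw [hdi, h5, inv_inv] at h7
      exact h7
    have h8 : d * r⁻¹ = r * d := by
      calc d * r⁻¹ = d * r⁻¹ * (d * d) := by rw [H.d2, mul_one]
        _ = d * r⁻¹ * d * d := by group
        _ = r * d := by rw [h6]
    have h9 : r * d = d * r⁻¹ := h8.symm
    calc d * (r⁻¹ * e * r) * d = (d * r⁻¹) * e * (r * d) := by group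
      _ = r * (d * e * d) * r⁻¹ := by rw [h8]; nth_rewrite 2 [h9]; group
      _ = r * (e * d * e) * r⁻¹ := by rw [hb]
      _ = r * e * (d * 1) * e * r⁻¹ := by group
      _ = r * e * ((r⁻¹ * (r * d)) * (r * r⁻¹)) * e * r⁻¹ := by group
      _ = r * e * ((r⁻¹ * (d * r⁻¹)) * (r * r⁻¹)) * e * r⁻¹ := by rw [h9]
      _ = r * e * r⁻¹ * d * (r⁻¹ * r⁻¹) * (r * e * r⁻¹) := by group

end L8

theorem center_sl_two_even {F : Type*} [Field F] (h2 : (2 : F) = 0) {x : Matrix.SpecialLinearGroup (Fin 2) F}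
    (hx : x ∈ center (Matrix.SpecialLinearGroup (Fin 2) F)) : x = 1 := by
  rw [ClassicalGeometry.PSL2Basic.mem_center_SL2_iff] at hx
  rcases hx with rfl | rfl
  · rfl
  have h1 : (-1 : F) = 1 := by
    rw [neg_eq_iff_add_eq_zero, one_add_one_eq_two, h2]
  apply Subtype.ext
  ext i j
  fin_cases i <;> fin_cases j <;> simp [h1]

theorem hasMS_of_L8 {G : Type*} [Group G] {d e s : G} (H : L8 d e s) (hne : e ≠ 1) : HasMS G := by
  refine hasMS_of_sl_two (F := K8) (by rw [K8.card]; norm_num) (Lib.SL2Hom.hom H.rel)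
    (fun x hx => by rw [center_sl_two_even K8.two_eq hx, map_one]) ⟨Lib.SL2Hom.up 1, ?_⟩
  rw [Lib.SL2Hom.hom_up]
  have : lg (1 : K8) = 0 := by decide +kernel
  simp only [L8.xx, if_neg (one_ne_zero (α := K8)), this, L8.ee, pow_zero, inv_one, one_mul, mul_one]
  exact hne

local notation "tg" => Cfsg.Agent.Th.Base.gen

theorem hasMS_of_th {G : Type*} [Group G] (hna : ¬ IsMulCommutative G) (h : Spor.IsoTh G) : HasMS G := by
  obtain ⟨e⟩ := h
  have R := Cfsg.Agent.Th.Base.rel_th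
  have sq : ∀ {x : Spor.Th}, x ^ 2 = 1 → x * x = 1 := fun h => by rwa [pow_two] at h
  have hd := sq R.K.d2
  have he := sq R.K.e2
  have hdi := sq_inv hd
  have hei := sq_inv he
  have H : L8 (tg .d) (tg .e) (tg .s) := by
    refine ⟨hd, he, R.K.de3, R.K.s7, ?_, ?_⟩
    · have h1 := sq R.K.sd2
      have h2 : tg .s * (tg .d * tg .s * tg .d) = 1 := by rw [← h1]; group
      exact eq_inv_of_mul_eq_one_right h2
    · have h1 := mul_inv_eq_one.1 R.K.es
      rw [hei] at h1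
      rw [← h1]; group
  have hne : (tg .e : Spor.Th) ≠ 1 := by
    intro h
    apply not_comm_of_iso e hna
    have d1 : (tg .d : Spor.Th) = 1 := eq_one_of_two_three hd (by
      have := R.K.de3
      rwa [h, mul_one] at this)
    have s1 : (tg .s : Spor.Th) = 1 := by
      have h1 := R.K.sd2
      rw [d1, mul_one] at h1
      exact eq_of_two_odd h1 (by decide) R.K.s7
    have a1 : (tg .a : Spor.Th) = 1 := by
      have h1 := mul_inv_eq_one.1 R.K.acd
      rw [d1, mul_one, show (tg .c : Spor.Th) ^ 4 = (tg .c ^ 2) ^ 2 from by rw [← pow_mul], R.K.c2, one_pow] at h1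
      exact h1
    have b1 : (tg .b : Spor.Th) = 1 := eq_one_of_two_three (sq R.K.b2) (by
      have := R.K.ab3
      rwa [a1, one_mul] at this)
    have c1 : (tg .c : Spor.Th) = 1 := eq_one_of_two_three (sq R.K.c2) (by
      have := R.K.bc3
      rwa [b1, one_mul] at this)
    have u2 : (tg .u : Spor.Th) ^ 2 = 1 := by
      have h1 := mul_inv_eq_one.1 R.C.u2
      rw [h1, a1, c1, one_mul]
    have u1 : (tg .u : Spor.Th) = 1 := by
      have h1 := mul_inv_eq_one.1 R.C.us3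
      rw [a1, c1, s1, one_mul, mul_one] at h1
      exact eq_of_two_odd u2 (by decide) h1.symm
    have t1 : (tg .t : Spor.Th) = 1 := by
      have h1 := R.C.tu
      rw [u1, inv_one, one_mul, mul_one, inv_inv] at h1
      exact eq_of_two_odd (by rw [pow_two, h1]) (by decide) R.C.t3
    refine comm_of_all Spor.Th.edges Spor.Th.extra (t := 1) fun u => ?_
    cases u
    · exact a1
    · exact b1
    · exact c1
    · exact d1
    · exact h
    · exact s1
    · exact t1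
    · exact u1
  exact (hasMS_of_L8 H hne).congr e.symm

end Cfsg.Agent.H46.MS
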