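import Cfsg.Agent.H46.MSPres
import Cfsg.Agent.ChevalleyStructure.TwF4.BN
import Cfsg.Agent.ChevalleyStructure.TwF4.TitsPerfect

/-!
# Minimal simple subgroups: the Tits group (helper46)

`²F₄(2)` contains an involution `z` and an element `x` of order three with `(z x)⁵ = 1`.
-/

set_option autoImplicit false

namespace Cfsg.Agent.H46.MS

open Cfsg Cfsg.Lie Cfsg.Agent.ChevalleyStructure.TwF4 Cfsg.Agent.ChevalleyStructure.TwF4.Rel
  Cfsg.Agent.ChevalleyStructure.TwF4.Tables Cfsg.Agent.ChevalleyStructure.TwF4.TitsPerfect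

namespace Tits

/-- the word of the involution -/
def lz : List ℕ := [33, 24, 14, 23, 33, 24]

/-- the word of the element of order three -/
def lx : List ℕ := [28, 25, 27, 33, 24, 27, 25, 28, 19, 22, 20, 14, 23, 20, 22, 19]

theorem wz : gA * gA' * gA = wd lz := by
  unfold gA gA'
  rw [wd_append, wd_append]
  rfl

theorem wx : gC⁻¹ * gA * gC * gC'⁻¹ * gA' * gC' = wd lx := by
  unfold gA gA' gC gC'
  rw [wd_inv, wd_inv, wd_append, wd_append, wd_append, wd_append, wd_append]
  rfl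

theorem z_sq : wd lz * wd lz = 1 := by
  rw [wd_append]
  exact (wd_eq _ [] (by decide +kernel)).trans wd_nil

theorem x_cube : wd lx ^ 3 = 1 := by
  rw [pow_succ, pow_succ, pow_one, wd_append, wd_append]
  exact (wd_eq _ [] (by decide +kernel)).trans wd_nil

theorem zx_five : (wd lz * wd lx) ^ 5 = 1 := by
  simp only [pow_succ, pow_zero, one_mul, wd_append]
  exact (wd_eq _ [] (by decide +kernel)).trans wd_nil

theorem z_ne : wd lz ≠ 1 := by
  intro h
  have h1 : wd lz * gA = gA' * wd lz := by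
    unfold gA gA'
    rw [wd_append, wd_append]
    exact wd_eq _ _ (by decide +kernel)
  rw [h, one_mul, mul_one] at h1
  have h2 : gA * gA = 1 := by
    unfold gA
    rw [wd_append]
    exact (wd_eq _ [] (by decide +kernel)).trans wd_nil
  rw [← wz, ← h1, h2, one_mul] at h
  apply BN.xa_ne_one (K := ZMod 2) 1
  unfold TwistedFix.xa
  rw [one_pow, ← h]
  unfold gA
  rw [wd_cons, wd_cons, wd_nil, mul_one]

end Tits

theorem ne_aux {G : Type*} [Group G] {z x : G} (hz : z * z = 1) (h5 : (z * x) ^ 5 = 1) (hne : z ≠ 1) : x ≠ 1 := by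
  rintro rfl
  apply hne
  rw [mul_one] at h5
  have h4 : z ^ 5 = z * z * (z * z) * z := by
    simp only [pow_succ, pow_zero, one_mul, mul_assoc]
  rwa [h4, hz, one_mul, one_mul] at h5

theorem hasMS_subgroup_235 {G : Type*} [Group G] (H : Subgroup G) {z x : G} (hzH : z ∈ H) (hxH : x ∈ H)
    (hz : z * z = 1) (hx : x ^ 3 = 1) (h5 : (z * x) ^ 5 = 1) (hne : z ≠ 1) : HasMS ↥H := by
  refine hasMS_of_235 (⟨z, hzH⟩ : ↥H) ⟨x, hxH⟩ (Subtype.ext hz) (Subtype.ext hx) (Subtype.ext h5) ?_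
  intro h
  exact ne_aux hz h5 hne (congrArg Subtype.val h)

theorem z_mem : wd Tits.lz ∈ twistedF4 (ZMod 2) 1 := by
  rw [← Tits.wz]
  exact mul_mem (mul_mem gA_mem gA'_mem) gA_mem

theorem x_mem : wd Tits.lx ∈ twistedF4 (ZMod 2) 1 := by
  rw [← Tits.wx]
  exact mul_mem (mul_mem (mul_mem (mul_mem (mul_mem (inv_mem gC_mem) gA_mem) gC_mem) (inv_mem gC'_mem))
    gA'_mem) gC'_mem

theorem hasMS_twistedF4 : HasMS ↥(twistedF4 (ZMod 2) 1) :=
  hasMS_subgroup_235 _ z_mem x_mem Tits.z_sq Tits.x_cube Tits.zx_five Tits.z_ne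

theorem hasMS_commutator_of {G K : Type*} [Group G] [Group K] (h : HasMS K)
    (e : Nonempty (G ≃* ↥(commutator K))) : HasMS G := by
  obtain ⟨e⟩ := e
  exact HasMS.congr e.symm h.commutator

theorem hasMS_of_tits {G : Type*} [Group G] (h : IsoTits G) : HasMS G :=
  hasMS_commutator_of hasMS_twistedF4 h

end Cfsg.Agent.H46.MS
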