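import Cfsg.Agent.H46.MSChev
import Cfsg.Agent.ChevalleyStructure.D4U
import Cfsg.Prelude.Def_LieTwisted

/-!
# Minimal simple subgroups of `²E₆(q)` and `³D₄(q)` (helper46)
-/

set_option autoImplicit false

namespace Cfsg.Agent.H46.MS

open Matrix Subgroup Cfsg Cfsg.Lie Cfsg.Agent.ChevalleyStructure.Elts
open scoped commutatorElement

theorem exists_fixed_hom (K : Type) [Field K] [Fintype K] {q n : ℕ} (hq : IsPrimePow q)
    (hc : Fintype.card K = q ^ n) :
    ∃ (K₀ : Type) (_ : Field K₀) (_ : Finite K₀) (f : K₀ →+* K), ∀ t, f t ^ q = f t := by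
  obtain ⟨p, k, hp, hk, rfl⟩ := hq
  have hp' : p.Prime := hp.nat_prime
  have : Fact p.Prime := ⟨hp'⟩
  have hK0 : Nat.card (GaloisField p k) = p ^ k := GaloisField.card p k hk.ne'
  have : Finite (GaloisField p k) := Nat.finite_of_card_ne_zero (by rw [hK0]; exact pow_ne_zero _ hp'.ne_zero)
  let := Fintype.ofFinite (GaloisField p k)
  obtain ⟨f⟩ := ClassicalGeometry.PSL2Basic.exists_ringHom_of_card_pow (K := GaloisField p k) (L := K) (m := n)
    (by rw [← Nat.card_eq_fintype_card, hK0, hc])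
  refine ⟨GaloisField p k, inferInstance, inferInstance, f, fun t => ?_⟩
  rw [← map_pow]
  congr 1
  have := FiniteField.pow_card t
  rwa [← Nat.card_eq_fintype_card, hK0] at this

theorem xG_mem_genSubgroup {D : ChevalleyDatum} (hD : InList D) {F : Type*} [Field F] {S : Set (List (ℕ × F))}
    {w : List (ℕ × F)} (hw : w ∈ S) : wordG hD w ∈ D.genSubgroup F S :=
  Subgroup.subset_closure ⟨w, hw, coe_wordG hD w⟩

/-- closing up: the roots `(0,2)`, `(2,0)` are commutators -/
theorem hasMS_of_a2' {K₀ K : Type*} [Field K₀] [Field K] {D : ChevalleyDatum} (hD : InList D) {a b c : ℕ}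
    (f : K₀ →+* K) [Finite K₀] (h : IsA2 D a b c) (S : Subgroup (GL D.Idx K))
    (h1 : ∀ t : K₀, xG hD a (f t) ∈ S) (h2 : ∀ t : K₀, xG hD (D.neg a) (f t) ∈ S)
    (h3 : ∀ t : K₀, xG hD b (f t) ∈ S) (h4 : ∀ t : K₀, xG hD (D.neg b) (f t) ∈ S) : HasMS ↥S := by
  have hst := rx_stein hD f h
  have h5 : ∀ t : K₀, rx hD f a b c 0 2 t ∈ S := by
    intro t
    have := hst.br 0 1 2 (by decide) (by decide) (by decide) 1 t
    rw [one_mul] at this
    rw [← this, commutatorElement_def]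
    have e1 : rx hD f a b c 0 1 1 ∈ S := h1 1
    have e2 : rx hD f a b c 1 2 t ∈ S := h3 t
    exact S.mul_mem (S.mul_mem (S.mul_mem e1 e2) (S.inv_mem e1)) (S.inv_mem e2)
  have h6 : ∀ t : K₀, rx hD f a b c 2 0 t ∈ S := by
    intro t
    have := hst.br 2 1 0 (by decide) (by decide) (by decide) 1 t
    rw [one_mul] at this
    rw [← this, commutatorElement_def]
    have e1 : rx hD f a b c 2 1 1 ∈ S := h4 1
    have e2 : rx hD f a b c 1 0 t ∈ S := h2 t
    exact S.mul_mem (S.mul_mem (S.mul_mem e1 e2) (S.inv_mem e1)) (S.inv_mem e2)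
  refine hasMS_of_a2 hD f h S ?_
  intro i j hij t
  fin_cases i <;> fin_cases j
  · exact absurd rfl hij
  · exact h1 t
  · exact h5 t
  · exact h2 t
  · exact absurd rfl hij
  · exact h3 t
  · exact h6 t
  · exact h4 t
  · exact absurd rfl hij

theorem hasMS_of_iso2E6 {G : Type*} [Group G] (h : Iso2E6 G) : HasMS G := by
  obtain ⟨K, _, _, q, hq, hc, ⟨e⟩⟩ := h
  obtain ⟨K₀, _, _, f, hf⟩ := exists_fixed_hom K hq hc
  have key : ∀ r ∈ [e6p2, e6m2, e6p4, e6m4], ∀ t : K₀, xG (by simp) r (f t) ∈ twistedE6 K q := by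
    intro r hr t
    have : wordG (F := K) (D := chevE6) (by simp) [(r, f t)] ∈ twistedE6 K q :=
      xG_mem_genSubgroup _ (Or.inl ⟨f t, hf t, r, hr, rfl⟩)
    rw [wordG_cons, wordG_nil, mul_one] at this
    exact this
  refine (hasMS_of_a2' (by simp) f isA2_E6 (twistedE6 K q) (key 39 (by decide)) (key (chevE6.neg 39) (by decide))
    (key 46 (by decide)) (key (chevE6.neg 46) (by decide))).congr e.symm

section D4

open Cfsg.Agent.ChevalleyStructure.D4U Cfsg.Agent.ChevalleyStructure.D4NConj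
  Cfsg.Agent.ChevalleyStructure.D4NCheck

theorem xG_eq_D4 {K : Type} [Field K] (hD : InList chevD4) (r : ℕ) (t : K) :
    ChevalleyStructure.Elts.xG hD r t = ChevalleyStructure.D4Comm.xG r t := Units.ext rfl

theorem nb_conj_14 {K : Type} [Field K] (t : K) :
    nb K * ChevalleyStructure.D4Comm.xG 14 t * (nb K)⁻¹ = ChevalleyStructure.D4Comm.xG 22 (-t) := by
  have e : nb K * ChevalleyStructure.D4Comm.xG 14 t * (nb K)⁻¹ =
      nG K 0 * (nG K 2 * (nG K 3 * ChevalleyStructure.D4Comm.xG 14 t * (nG K 3)⁻¹) * (nG K 2)⁻¹) * (nG K 0)⁻¹ := by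
    unfold nb
    group
  rw [e, nG_conj (by norm_num) (by norm_num), nG_conj (by norm_num) (by decide), nG_conj (by norm_num) (by decide)]
  have h1 : rfl' 0 (rfl' 2 (rfl' 3 14)) = 22 := by decide
  have h2 : eta 0 (rfl' 2 (rfl' 3 14)) = -1 := by decide
  have h3 : eta 2 (rfl' 3 14) = 1 := by decide
  have h4 : eta 3 14 = 1 := by decide
  rw [h1, h2, h3, h4]
  simp

theorem nb_conj_9 {K : Type} [Field K] (t : K) :
    nb K * ChevalleyStructure.D4Comm.xG 9 t * (nb K)⁻¹ = ChevalleyStructure.D4Comm.xG 1 (-t) := by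
  have e : nb K * ChevalleyStructure.D4Comm.xG 9 t * (nb K)⁻¹ =
      nG K 0 * (nG K 2 * (nG K 3 * ChevalleyStructure.D4Comm.xG 9 t * (nG K 3)⁻¹) * (nG K 2)⁻¹) * (nG K 0)⁻¹ := by
    unfold nb
    group
  rw [e, nG_conj (by norm_num) (by norm_num), nG_conj (by norm_num) (by decide), nG_conj (by norm_num) (by decide)]
  have h1 : rfl' 0 (rfl' 2 (rfl' 3 9)) = 1 := by decide
  have h2 : eta 0 (rfl' 2 (rfl' 3 9)) = -1 := by decide
  have h3 : eta 2 (rfl' 3 9) = 1 := by decide
  have h4 : eta 3 9 = 1 := by decide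
  rw [h1, h2, h3, h4]
  simp

theorem hasMS_of_iso3D4 {G : Type*} [Group G] (h : Iso3D4 G) : HasMS G := by
  obtain ⟨K, _, _, q, hq, hc, ⟨e⟩⟩ := h
  obtain ⟨K₀, _, _, f, hf⟩ := exists_fixed_hom K hq hc
  have hnb : nb K ∈ twistedD4 K q := by
    obtain ⟨p, k, hp, hk, rfl⟩ := hq
    have hp' : p.Prime := hp.nat_prime
    have : Fact p.Prime := ⟨hp'⟩
    have hch : CharP K p := by
      obtain ⟨r, hr⟩ := CharP.exists K
      have hr' : r.Prime := (CharP.char_is_prime_or_zero K r).resolve_right fun h0 => by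
        subst h0
        have := CharP.charP_to_charZero K
        exact not_finite K
      have hdvd : r ∣ Fintype.card K := by
        rw [← CharP.cast_eq_zero_iff K r]
        exact FiniteField.cast_card_eq_zero K
      rw [hc] at hdvd
      have := (Nat.prime_dvd_prime_iff_eq hr' hp').1 (hr'.dvd_of_dvd_pow (hr'.dvd_of_dvd_pow hdvd))
      rwa [this] at hr
    exact nb_mem (φ := iterateFrobenius K p k) fun x => rfl
  have key : ∀ r ∈ [d4p2, d4m2], ∀ t : K₀, ChevalleyStructure.Elts.xG (F := K) (D := chevD4) (by simp) r (f t) ∈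
      twistedD4 K q := by
    intro r hr t
    have : ChevalleyStructure.Elts.wordG (F := K) (D := chevD4) (by simp) [(r, f t)] ∈ twistedD4 K q :=
      xG_mem_genSubgroup _ (Or.inl ⟨f t, hf t, r, hr, rfl⟩)
    rw [ChevalleyStructure.Elts.wordG_cons, ChevalleyStructure.Elts.wordG_nil, mul_one] at this
    exact this
  have key2 : ∀ t : K₀, ChevalleyStructure.Elts.xG (F := K) (D := chevD4) (by simp) 22 (f t) ∈ twistedD4 K q := by
    intro t
    have h1 := key 14 (by decide) (-t)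
    rw [xG_eq_D4] at h1 ⊢
    have h2 := nb_conj_14 (f (-t))
    rw [← neg_neg (f t), ← map_neg, ← h2]
    exact Subgroup.mul_mem _ (Subgroup.mul_mem _ hnb h1) (Subgroup.inv_mem _ hnb)
  have key3 : ∀ t : K₀, ChevalleyStructure.Elts.xG (F := K) (D := chevD4) (by simp) 1 (f t) ∈ twistedD4 K q := by
    intro t
    have h1 := key 9 (by decide) (-t)
    rw [xG_eq_D4] at h1 ⊢
    have h2 := nb_conj_9 (f (-t))
    rw [← neg_neg (f t), ← map_neg, ← h2]
    exact Subgroup.mul_mem _ (Subgroup.mul_mem _ hnb h1) (Subgroup.inv_mem _ hnb)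
  exact (hasMS_of_a2' (by simp) f isA2_D4 (twistedD4 K q) (key 14 (by decide)) (key 9 (by decide))
    key2 key3).congr e.symm

end D4

end Cfsg.Agent.H46.MS
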